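import Cfsg.Agent.H7.ThompsonWielandt

/-!
# Primitive groups with an alternating or symmetric subconstituent (Knapp)
-/

set_option autoImplicit false

namespace Cfsg.Agent.H7.Kn

open Subgroup Equiv Equiv.Perm
open scoped Pointwise

section perm

variable {α : Type*} [Fintype α] [DecidableEq α]

theorem eq_one_of_comm_alt (h5 : 5 ≤ Nat.card α) {σ : Perm α}
    (h : ∀ τ ∈ alternatingGroup α, τ * σ = σ * τ) : σ = 1 := by
  by_contra hne
  have : Nontrivial ↥(centralizer (alternatingGroup α : Set (Perm α))) :=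
    ⟨⟨⟨σ, h⟩, 1, fun e => hne (congrArg Subtype.val e)⟩⟩
  have h1 := alternatingGroup_le_of_normal h5 (N := centralizer (alternatingGroup α : Set (Perm α))) this
  have h2 := alternatingGroup.center_eq_bot (α := α) (by omega)
  have := (alternatingGroup.isSimpleGroup h5).toNontrivial
  obtain ⟨x, hx⟩ := exists_ne (1 : alternatingGroup α)
  exact hx (mem_bot.1 (h2 ▸ mem_center_iff.2 fun y => Subtype.ext (h1 x.2 y y.2)))

theorem alt_le (h5 : 5 ≤ Nat.card α) {V : Subgroup (Perm α)} (hV : V ≠ ⊥)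
    (h : ∀ τ ∈ alternatingGroup α, ∀ σ ∈ V, τ * σ * τ⁻¹ ∈ V) : alternatingGroup α ≤ V := by
  have := alternatingGroup.isSimpleGroup h5
  have hn : (V.subgroupOf (alternatingGroup α)).Normal := ⟨fun σ hσ τ => h τ τ.2 σ hσ⟩
  refine subgroupOf_eq_top.1 (hn.eq_bot_or_eq_top.resolve_left fun e => hV (eq_bot_iff.2 fun σ hσ => ?_))
  refine eq_one_of_comm_alt h5 fun τ hτ => ?_
  have h1 : (⟨τ * σ * τ⁻¹ * σ⁻¹, by simp [mem_alternatingGroup.1 hτ]⟩ : alternatingGroup α) ∈
    V.subgroupOf (alternatingGroup α) := mul_mem (h τ hτ σ hσ) (inv_mem hσ)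
  rw [e, mem_bot, Subtype.ext_iff] at h1
  exact mul_inv_eq_iff_eq_mul.1 (mul_inv_eq_one.1 h1)

end perm

variable {G : Type*} [Group G]

/-- `H / K` is the alternating or the symmetric group of `α`. -/
structure Alt {α : Type*} [Fintype α] [DecidableEq α] (H K : Subgroup G) (φ : H →* Perm α) : Prop where
  five : 5 ≤ Nat.card α
  le : K ≤ H
  ker : ∀ x : H, φ x = 1 ↔ (x : G) ∈ K
  alt : alternatingGroup α ≤ φ.range

/-- The image of `V` contains the alternating group. -/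
def Big {α : Type*} [Fintype α] [DecidableEq α] {H : Subgroup G} (φ : H →* Perm α) (V : Subgroup G) :
    Prop := ∀ τ ∈ alternatingGroup α, ∃ x : H, (x : G) ∈ V ∧ φ x = τ

namespace Alt

variable {α : Type*} [Fintype α] [DecidableEq α] {H K U V : Subgroup G} {φ : H →* Perm α}
  (h : Alt H K φ)
include h

theorem big : Big φ H := fun _ hτ => (h.alt hτ).imp fun x hx => ⟨x.2, hx⟩

theorem ker_eq : φ.ker = K.subgroupOf H := Subgroup.ext h.ker

theorem normalIn : NormalIn K H := NormalIn.iff_subgroupOf.2 ⟨h.le, h.ker_eq ▸ inferInstance⟩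

theorem big_of (hU : Big φ U) (hV : V ≤ H) (hn : U ≤ normalizer (V : Set G)) (hK : ¬ V ≤ K) : Big φ V := by
  refine fun τ hτ => alt_le h.five (V := (V.subgroupOf H).map φ) (fun e => hK fun x hx => ?_) ?_ hτ
  · exact (h.ker ⟨x, hV hx⟩).1 (mem_bot.1 (e ▸ mem_map_of_mem φ hx))
  · rintro τ hτ _ ⟨x, hx, rfl⟩
    obtain ⟨u, hu, rfl⟩ := hU τ hτ
    exact ⟨u * x * u⁻¹, (mem_normalizer_iff.1 (hn hu) x).1 hx, by simp⟩

theorem mem_of_comm (hU : Big φ U) {x : G} (hx : x ∈ H) (hc : x ∈ centralizer (U : Set G)) : x ∈ K :=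
  (h.ker ⟨x, hx⟩).1 (eq_one_of_comm_alt h.five fun τ hτ => by
    obtain ⟨u, hu, rfl⟩ := hU τ hτ
    rw [← map_mul, ← map_mul]
    exact congrArg φ (Subtype.ext (hc u hu)))

theorem relIndex_eq (hV : V ≤ H) : K.relIndex V = Nat.card ((V.subgroupOf H).map φ) := by
  rw [← relIndex_subgroupOf hV, ← h.ker_eq, relIndex_ker]

theorem relIndex_le : K.relIndex H ≤ (Nat.card α).factorial := by
  rw [h.relIndex_eq le_rfl, ← Nat.card_perm]
  exact card_le_card_group _

theorem le_relIndex (hV : V ≤ H) (hb : Big φ V) : (Nat.card α).factorial ≤ 2 * K.relIndex V := by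
  have := (Finite.one_lt_card_iff_nontrivial (α := α)).1 (by have := h.five; omega)
  rw [h.relIndex_eq hV, ← Nat.card_perm, ← two_mul_nat_card_alternatingGroup]
  exact Nat.mul_le_mul_left _ (card_le_of_le hb)

theorem pCoreIn_le (p : ℕ) [hp : Fact p.Prime] : pCoreIn p H ≤ K := by
  by_contra hn
  have hb := h.big_of h.big (H7.pCoreIn_le p H) (pCoreIn_normalIn p H).2 hn
  have h1 : IsPGroup p (alternatingGroup α) :=
    (((pCoreIn_isPGroup p H).comap_subtype (K := H)).map φ).to_le hb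
  have := alternatingGroup.isSimpleGroup h.five
  have h2 := alternatingGroup.center_eq_bot (α := α) (by have := h.five; omega)
  exact not_nontrivial _ (h2 ▸ h1.center_nontrivial)

theorem exists_mul {b : α} (hb : Big φ V) (x : H) : ∃ c : H, (c : G) ∈ V ∧ φ (c⁻¹ * x) b = b := by
  have := alternatingGroup.isPretransitive_of_three_le_card (α := α) (by have := h.five; omega)
  obtain ⟨τ, hτ⟩ := MulAction.exists_smul_eq (alternatingGroup α) b (φ x b)
  obtain ⟨c, hc, e⟩ := hb τ τ.2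
  exact ⟨c, hc, by rw [map_mul, map_inv, Perm.mul_apply, inv_eq_iff_eq, e]; exact hτ.symm⟩

theorem stab {b : α} {D : Subgroup G} (hD : D ≤ H) (h6 : 6 ≤ Nat.card α)
    (hb : ∀ x : H, (x : G) ∈ D ↔ φ x b = b) :
    ∃ ψ : D →* Perm {x // x ≠ b}, Alt D K ψ := by
  have hp : ∀ x : D, ∀ y, φ (inclusion hD x) y ≠ b ↔ y ≠ b := fun x y => by
    nth_rewrite 1 [← (hb (inclusion hD x)).1 x.2]
    exact (φ _).injective.ne_iff
  refine ⟨MonoidHom.mk' (fun x => (φ (inclusion hD x)).subtypePerm (hp x)) fun x y =>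
    Equiv.ext fun z => Subtype.ext (DFunLike.congr_fun ((φ.comp (inclusion hD)).map_mul x y) (z : α)), ?_, fun x hx => (hb ⟨x, h.le hx⟩).2 (by rw [(h.ker _).2 hx]; rfl), fun x => ?_, fun τ hτ => ?_⟩
  · rw [Nat.card_eq_fintype_card] at h6 ⊢
    simp only [Fintype.card_subtype_compl, Fintype.card_unique]
    omega
  · refine Iff.trans ⟨fun e => Equiv.ext fun y => ?_, fun e => Equiv.ext fun y => Subtype.ext ?_⟩
      (h.ker (inclusion hD x))
    · by_cases hy : y = b
      · exact hy ▸ (hb (inclusion hD x)).1 x.2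
      · exact congrArg Subtype.val (DFunLike.congr_fun e ⟨y, hy⟩)
    · exact DFunLike.congr_fun e (y : α)
  · obtain ⟨x, hx⟩ := h.alt (show ofSubtype τ ∈ alternatingGroup α by simpa using hτ)
    refine ⟨⟨x, (hb x).2 (by rw [hx, ofSubtype_apply_of_not_mem _ (by simp)])⟩, Equiv.ext fun y => Subtype.ext ?_⟩
    change φ x y = _
    rw [hx, ofSubtype_apply_coe]

end Alt

/-- Chains of `k` simple sections of order at least `n`. -/
def Ch (n : ℕ) : ℕ → Subgroup G → Prop
  | 0, _ => True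
  | k + 1, H => ∃ A B : Subgroup G, A ≤ H ∧ NormalIn B A ∧ n ≤ B.relIndex A ∧
      (∀ N, NormalIn N A → N ≤ B ∨ A ≤ B ⊔ N) ∧ Ch n k B

namespace Ch

variable {n k : ℕ} {H K : Subgroup G}

theorem mono (h : Ch n k H) (hK : H ≤ K) : Ch n k K := by
  cases k with
  | zero => trivial
  | succ k => obtain ⟨A, B, h1, h2⟩ := h; exact ⟨A, B, h1.trans hK, h2⟩

theorem smul (g : G) (h : Ch n k H) : Ch n k (MulAut.conj g • H) := by
  induction k generalizing H with
  | zero => trivial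
  | succ k ih =>
    obtain ⟨A, B, h1, h2, h3, h4, h5⟩ := h
    refine ⟨_, _, pointwise_smul_le_pointwise_smul_iff.2 h1, h2.smul g,
      by rwa [Subgroup.relIndex_pointwise_smul], fun N hN => ?_, ih h5⟩
    have := h4 _ (by simpa using hN.smul g⁻¹)
    rwa [← pointwise_smul_le_pointwise_smul_iff (a := MulAut.conj g), smul_inv_smul,
      ← pointwise_smul_le_pointwise_smul_iff (a := MulAut.conj g) (S := A), smul_sup, smul_inv_smul] at this

variable [Finite G]

theorem pow_le (h : Ch n k H) : n ^ k ≤ Nat.card H := by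
  induction k generalizing H with
  | zero => exact Nat.card_pos
  | succ k ih =>
    obtain ⟨A, B, h1, h2, h3, -, h5⟩ := h
    exact (Nat.mul_le_mul (ih h5) h3).trans ((card_mul_relIndex h2.1).le.trans (card_le_of_le h1))

theorem inf (h : Ch n k H) (hn : H ≤ normalizer (K : Set G)) (hK : K.relIndex H < n) : Ch n k (H ⊓ K) := by
  induction k generalizing H with
  | zero => trivial
  | succ k ih =>
    obtain ⟨A, B, h1, h2, h3, h4, h5⟩ := h
    have hA : K.relIndex A < n := (relIndex_le_of_le_right h1 (relIndex_ne_zero' _ _)).trans_lt hK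
    have hN : NormalIn (A ⊓ K) A := NormalIn.mk' inf_le_left fun b hb a ha =>
      ⟨A.mul_mem (A.mul_mem hb ha.1) (A.inv_mem hb), (mem_normalizer_iff.1 (hn (h1 hb)) a).1 ha.2⟩
    have h6 : A ≤ B ⊔ A ⊓ K := (h4 _ hN).resolve_left fun hle => by
      have := relIndex_le_of_le_left hle (relIndex_ne_zero' _ A)
      rw [inf_relIndex_left] at this
      omega
    have hm : ∀ a ∈ A, ∃ b ∈ B, ∃ c ∈ A ⊓ K, b * c = a := fun a ha => by
      have : a ∈ ((B ⊔ A ⊓ K : Subgroup G) : Set G) := h6 ha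
      rwa [coe_mul_of_right_le_normalizer_left _ _ (inf_le_left.trans h2.2)] at this
    refine ⟨A ⊓ K, B ⊓ K, inf_le_inf_right _ h1, h2.inf_right K, ?_, fun N hN' => ?_,
      ih h5 (h2.1.trans (h1.trans hn)) ((relIndex_le_of_le_right h2.1 (relIndex_ne_zero' _ _)).trans_lt hA)⟩
    · have := h2.subgroupOf_normal
      have e := relIndex_sup_left ((A ⊓ K).subgroupOf A) (B.subgroupOf A)
      rw [← subgroupOf_sup h2.1 inf_le_left, subgroupOf_eq_top.2 h6, relIndex_top_right,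
        relIndex_subgroupOf inf_le_left] at e
      rw [show B ⊓ K = B ⊓ (A ⊓ K) by rw [← inf_assoc, inf_eq_left.2 h2.1], inf_relIndex_right, ← e]
      exact h3
    have hBN : NormalIn (B ⊔ N) A := ⟨sup_le h2.1 (hN'.1.trans inf_le_left), fun a ha => by
      obtain ⟨b, hb, c, hc, rfl⟩ := hm a ha
      exact mul_mem (le_normalizer (mem_sup_left hb)) (normalizer_inf_normalizer_le_normalizer_sup _ _
        ⟨h2.2 hc.1, hN'.2 hc⟩)⟩
    refine (h4 _ hBN).imp (fun h7 => le_inf (le_sup_right.trans h7) (hN'.1.trans inf_le_right))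
      fun h7 a ha => ?_
    have : a ∈ ((B ⊔ N : Subgroup G) : Set G) := (h7.trans (sup_le le_sup_left le_rfl)) ha.1
    rw [coe_mul_of_right_le_normalizer_left _ _ (hN'.1.trans (inf_le_left.trans h2.2))] at this
    obtain ⟨b, hb, c, hc, rfl⟩ := this
    exact mul_mem (mem_sup_left ⟨hb, (K.mul_mem_cancel_right (hN'.1 hc).2).1 ha.2⟩) (mem_sup_right hc)

end Ch

theorem Alt.ch {α : Type*} [Fintype α] [DecidableEq α] {H K : Subgroup G} {φ : H →* Perm α}
    (h : Alt H K φ) {k : ℕ} (hk : Ch ((Nat.card α).factorial / 2) k K) :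
    Ch ((Nat.card α).factorial / 2) (k + 1) H := by
  have hA : ((alternatingGroup α).comap φ).map H.subtype ≤ H := map_subtype_le _
  have hb : Big φ (((alternatingGroup α).comap φ).map H.subtype) := fun τ hτ =>
    (h.alt hτ).imp fun x hx => ⟨⟨x, by simpa [hx] using hτ, rfl⟩, hx⟩
  refine ⟨_, K, hA, h.normalIn.mono (fun x hx => ⟨⟨x, h.le hx⟩, by simp [(h.ker ⟨x, h.le hx⟩).2 hx], rfl⟩) hA,
    by have := h.le_relIndex hA hb; omega, fun N hN => (em _).imp id fun hn => ?_, hk⟩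
  rintro _ ⟨x, hx, rfl⟩
  obtain ⟨y, hy, e⟩ := h.big_of hb (hN.1.trans hA) hN.2 hn _ hx
  have : ((x * y⁻¹ : H) : G) ∈ K := (h.ker _).1 (by simp [e])
  simpa using mul_mem (mem_sup_left this) (mem_sup_right (S := K) hy)

theorem exists_ext {P : Type*} [Group P] {X C D : Subgroup G} (hC : NormalIn C X) (hD : D ≤ X)
    (hm : ∀ x ∈ X, ∃ c ∈ C, c⁻¹ * x ∈ D) (ψ : D →* P) (h1 : ∀ x : D, (x : G) ∈ C → ψ x = 1) :
    ∃ f : X →* P, (∀ x : D, f (inclusion hD x) = ψ x) ∧ ∀ x : X, (x : G) ∈ C → f x = 1 := by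
  choose c hc hc' using fun x : X => hm x x.2
  have key : ∀ (x : X) (y : D), (x : G) * (y : G)⁻¹ ∈ C → ψ ⟨_, hc' x⟩ = ψ y := fun x y h => by
    rw [← mul_inv_eq_one, ← map_inv, ← map_mul]
    exact h1 _ (by simpa [mul_assoc] using mul_mem (inv_mem (hc x)) h)
  refine ⟨MonoidHom.mk' (fun x => ψ ⟨_, hc' x⟩) fun x y => ?_, fun x => key _ x (by simp),
    fun x hx => (key x 1 (by simpa using hx)).trans ψ.map_one⟩
  rw [← map_mul]
  exact key _ _ (by simpa [mul_assoc] using mul_mem (hC.conj_mem (hc y) x.2) (hc x))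

variable [Finite G] {α β : Type*} [Fintype α] [DecidableEq α] [Fintype β] [DecidableEq β]
  {X Y K K' : Subgroup G} {φ : X →* Perm α} {φ' : Y →* Perm β} {a : β} {b : α} {g : G}

theorem key (hA : Amalg X Y) (hg : MulAut.conj g • X = Y) (h : Alt X K φ) (h' : Alt Y K' φ')
    (hb : ∀ x : X, (x : G) ∈ Y ↔ φ x b = b) (ha : ∀ y : Y, (y : G) ∈ X ↔ φ' y a = a)
    (hd : 2 * K.relIndex (X ⊓ Y) < (Nat.card α).factorial) (hF : fittingIn (X ⊓ Y) = ⊥)
    (hC : centralizer (K : Set G) ⊓ X ≠ ⊥) :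
    MulAut.conj g • K = K' ∧ K ⊓ K' = ⊥ ∧ Big φ (centralizer (K : Set G) ⊓ X) := by
  set C := centralizer (K : Set G) ⊓ X
  have hKY : K ≤ Y := fun x hx => (hb ⟨x, h.le hx⟩).2 (by rw [(h.ker _).2 hx]; rfl)
  have hKX : K' ≤ X := fun x hx => (ha ⟨x, h'.le hx⟩).2 (by rw [(h'.ker _).2 hx]; rfl)
  have nC : NormalIn C X := NormalIn.centralizer_inf h.normalIn.2
  have nC' : NormalIn (MulAut.conj g • C) Y := hg ▸ nC.smul g
  have hCK : C ⊓ K = ⊥ := eq_bot_iff.2 (hF ▸ ((nC.inf h.normalIn).mono (inf_le_right.trans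
    (le_inf h.le hKY)) inf_le_left).le_fittingIn (isNilpotent_of_commutator_eq_bot
      (commutator_eq_bot_iff_le_centralizer.2 ((inf_le_left.trans inf_le_left).trans
        (centralizer_le inf_le_right)))))
  have big : ∀ {U V}, Big φ U → V ≤ C → U ≤ normalizer (V : Set G) → V ≠ ⊥ → Big φ V :=
    fun hU hV hn h0 => h.big_of hU (hV.trans nC.1) hn fun e => h0 (eq_bot_iff.2 (hCK ▸ le_inf hV e))
  have bC := big h.big le_rfl nC.2 hC
  have gen : ∀ {N}, C ≤ N → X ⊓ Y ≤ N → X ≤ N := fun h1 h2 x hx => by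
    obtain ⟨c, hc, e⟩ := h.exists_mul (b := b) bC ⟨x, hx⟩
    simpa using mul_mem (h1 hc) (h2 ⟨(c⁻¹ * ⟨x, hx⟩ : X).2, (hb _).2 e⟩)
  have sm : ∀ {A B : Subgroup G}, MulAut.conj g⁻¹ • A ≤ B ↔ A ≤ MulAut.conj g • B := fun {A B} => by
    rw [← pointwise_smul_le_pointwise_smul_iff (a := MulAut.conj g), map_inv, smul_inv_smul]
  have hJ : MulAut.conj g • C ⊓ K' = ⊥ := by
    by_contra hJ
    set J := MulAut.conj g • C ⊓ K'
    have nJ : NormalIn (MulAut.conj g⁻¹ • J) X := by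
      have := (nC'.inf h'.normalIn).smul g⁻¹
      rwa [← hg, map_inv, inv_smul_smul, ← map_inv] at this
    have nb : ∀ {A : Subgroup G}, A ≠ ⊥ → MulAut.conj g⁻¹ • A ≠ ⊥ := fun hA e =>
      hA (eq_bot_iff.2 (by simpa using sm.1 e.le))
    have b1 := big h.big (sm.2 inf_le_left) nJ.2 (nb hJ)
    have hJD : J ≤ X ⊓ Y := inf_le_right.trans (le_inf hKX h'.le)
    have b2 : Big φ (MulAut.conj g⁻¹ • (J ⊓ K)) := by
      refine big b1 (sm.2 (inf_le_left.trans inf_le_left)) ?_ (nb fun e => ?_)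
      · exact (NormalIn.smul (NormalIn.mk' inf_le_left fun x hx y hy => ⟨J.mul_mem (J.mul_mem hx hy.1)
          (J.inv_mem hx), h.normalIn.conj_mem hy.2 (hJD hx).1⟩) g⁻¹).2
      have h1 := h.le_relIndex nJ.1 b1
      have h2 := relIndex_le_of_le_right hJD (relIndex_ne_zero' K _)
      have h3 : K.relIndex (MulAut.conj g⁻¹ • J) ≤ Nat.card J := by
        rw [← card_conj_smul g⁻¹, ← relIndex_bot_left]
        exact relIndex_le_of_le_left bot_le (relIndex_ne_zero' _ _)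
      rw [← inf_relIndex_left, e, relIndex_bot_left] at h2
      omega
    let M := C ⊓ ((alternatingGroup α).comap φ).map X.subtype
    have nM : NormalIn (MulAut.conj g • M) Y := hg ▸ (nC.inf (NormalIn.map_subtype inferInstance)).smul g
    have hM : MulAut.conj g • M ≤ K := by
      refine (pointwise_smul_le_pointwise_smul_iff.2 (?_ : M ≤ MulAut.conj g⁻¹ • (J ⊓ K))).trans
        (by simp)
      rintro _ ⟨hx, x, hx', rfl⟩
      obtain ⟨y, hy, e⟩ := b2 _ hx'
      have h1 : ((x * y⁻¹ : X) : G) ∈ C ⊓ K := ⟨C.mul_mem hx (C.inv_mem (sm.2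
        (inf_le_left.trans inf_le_left) hy)), (h.ker _).1 (by simp [e])⟩
      rw [hCK, mem_bot, Subgroup.coe_mul, Subgroup.coe_inv, mul_inv_eq_one] at h1
      rwa [← h1] at hy
    have hM0 : MulAut.conj g • M ≠ ⊥ := fun e => by
      have := (alternatingGroup.isSimpleGroup h.five).toNontrivial
      obtain ⟨τ, hτ⟩ := exists_ne (1 : alternatingGroup α)
      obtain ⟨x, hx, e'⟩ := bC τ τ.2
      have h1 : (x : G) ∈ M := ⟨hx, x, by simp [e'], rfl⟩
      rw [show M = ⊥ by simpa using congrArg (MulAut.conj g⁻¹ • ·) e, mem_bot] at h1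
      exact hτ (Subtype.ext (by rw [← e', show x = 1 from Subtype.ext h1]; exact φ.map_one))
    exact hA.ne (eq_of_le_of_card_le (gen (hA.right _ nM hM0 ▸ (inf_le_left.trans
      (centralizer_le hM)).trans (centralizer_le_normalizer _)) inf_le_right) hA.card_eq.ge)
  have cm : K' ≤ centralizer ((MulAut.conj g • C : Subgroup G) : Set G) :=
    commutator_eq_bot_iff_le_centralizer.1 (eq_bot_iff.2 (hJ ▸ (h'.normalIn.commutator_le_inf nC').trans
      (inf_comm _ _).le))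
  have bC' := h'.big_of h'.big nC'.1 nC'.2 fun e => hC (by
    simpa using congrArg (MulAut.conj g⁻¹ • ·) ((inf_eq_left.2 e).symm.trans hJ))
  refine ⟨le_antisymm (fun x hx => h'.mem_of_comm bC' (hg ▸ pointwise_smul_le_pointwise_smul_iff.2 h.le hx)
    fun y hy => ?_) (sm.1 fun x hx => h.mem_of_comm bC ((sm.2 (h'.le.trans hg.ge)) hx) fun y hy => ?_), ?_, bC⟩
  · simpa [mul_assoc] using congrArg (fun t => g * t * g⁻¹)
      ((mem_conj_smul.1 hy).1 _ (mem_conj_smul.1 hx)).symm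
  · simpa [mul_assoc] using congrArg (fun t => g⁻¹ * t * g)
      (cm (mem_conj_smul.1 hx) (g * y * g⁻¹) (mem_conj_smul.2 (by simpa [mul_assoc] using hy)))
  have nE : X ⊓ Y ≤ normalizer ((K ⊓ K' : Subgroup G) : Set G) :=
    ((h.normalIn.mono (le_inf h.le hKY) inf_le_left).inf
      (h'.normalIn.mono (le_inf hKX h'.le) inf_le_right)).2
  refine hA.eq_bot ⟨inf_le_left.trans h.le, gen ((inf_le_left.trans (centralizer_le inf_le_left)).trans
    (centralizer_le_normalizer _)) nE⟩ ⟨inf_le_right.trans h'.le, fun y hy => ?_⟩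
  obtain ⟨c, hc, e⟩ := h'.exists_mul (b := a) bC' ⟨y, hy⟩
  simpa using mul_mem (centralizer_le_normalizer _ (centralizer_le inf_le_right (le_centralizer_iff.1 cm hc)))
    (nE ⟨(ha _).2 e, (c⁻¹ * ⟨y, hy⟩ : Y).2⟩)

theorem main (hA : Amalg X Y) (h : Alt X K φ) (hb : ∀ x : X, (x : G) ∈ Y ↔ φ x b = b)
    (hk : ∀ y : Y, φ' y = 1 ↔ (y : G) ∈ K') (hK' : K' ≤ Y) (ha : ∀ y : Y, (y : G) ∈ X ↔ φ' y a = a)
    (h6 : 6 ≤ Nat.card α) (hβ : Nat.card β = Nat.card α) (hi : X.relIndex Y = Nat.card α)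
    (hKc : K = coreIn Y X) (hK0 : K ≠ ⊥) :
    ∃ f : X →* Perm {y // y ≠ a}, (∀ x, φ x = 1 → f x = 1 → x = 1) ∧
      (∀ τ ∈ alternatingGroup α, ∃ x, φ x = τ ∧ f x = 1) ∧
      (∀ τ ∈ alternatingGroup {y // y ≠ a}, ∃ x, φ x = 1 ∧ f x = τ) ∧
      ((∀ x, sign (φ x) = 1) → ∀ x, sign (f x) = 1) := by
  obtain ⟨g, hg⟩ := hA.conj
  have f1 : 6 * (Nat.card α - 1).factorial ≤ (Nat.card α).factorial := by
    rw [← Nat.mul_factorial_pred (n := Nat.card α) (by omega)]
    exact Nat.mul_le_mul_right _ h6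
  have f0 := (Nat.card α - 1).factorial_pos
  obtain ⟨ψ, hψ⟩ := h.stab (D := X ⊓ Y) inf_le_left h6 fun x => (and_iff_right x.2).trans (hb x)
  have d1 := hψ.relIndex_le
  have hker : φ'.ker = K'.subgroupOf Y := Subgroup.ext hk
  have nK' : NormalIn K' Y := NormalIn.iff_subgroupOf.2 ⟨hK', hker ▸ inferInstance⟩
  have hKX : K' ≤ X := fun x hx => (ha ⟨x, hK' hx⟩).2 (by rw [(hk ⟨x, hK' hx⟩).2 hx]; rfl)
  rw [show Nat.card {x // x ≠ b} = Nat.card α - 1 by simp] at d1
  have h' : Alt Y K' φ' := by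
    refine ⟨by omega, hK', hk, alternatingGroup_le_of_index_le_two ?_⟩
    have e1 : K'.relIndex Y = Nat.card φ'.range := by rw [relIndex, ← hker, index_ker]
    have e2 := φ'.range.card_mul_index
    rw [Nat.card_perm, hβ, ← e1] at e2
    by_contra hn
    have hlt : K'.relIndex Y < (Nat.card α).factorial / 2 := by
      have := Nat.mul_le_mul_left (K'.relIndex Y) (show 3 ≤ φ'.range.index by omega)
      have := (Nat.card α - 1).factorial_pos
      have := Nat.self_le_factorial (Nat.card α)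
      omega
    have ch : ∀ k, Ch ((Nat.card α).factorial / 2) k X := fun k => by
      induction k with
      | zero => trivial
      | succ k ih =>
        exact h.ch ((((((hg ▸ ih.smul g :).inf nK'.2 hlt).mono (le_inf (inf_le_right.trans hKX)
          inf_le_left)).inf hψ.normalIn.2 (by omega))).mono inf_le_right)
    have := (ch (Nat.card X)).pow_le
    have : Nat.card X < ((Nat.card α).factorial / 2) ^ Nat.card X := Nat.lt_pow_self (by omega)
    omega
  obtain ⟨ψ', hψ'⟩ := h'.stab (D := X ⊓ Y) inf_le_right (by omega) fun x => (and_iff_left x.2).trans (ha x)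
  have d2 := hψ'.relIndex_le
  rw [show Nat.card {x // x ≠ a} = Nat.card β - 1 by simp] at d2
  have hF : fittingIn (X ⊓ Y) = ⊥ := fittingIn_eq_bot_iff_pCoreIn.2 fun p hp => by
    have : Fact p.Prime := ⟨hp⟩
    exact hA.pCoreIn_inf_eq_bot (hKc ▸ hψ.pCoreIn_le p)
  have hC : centralizer (K : Set G) ⊓ X ≠ ⊥ := by
    intro hC
    by_cases hC' : centralizer (K' : Set G) ⊓ Y = ⊥
    · have key : ∀ {K Z : Subgroup G}, NormalIn K (X ⊓ Y) → X ⊓ Y ≤ Z → centralizer (K : Set G) ⊓ Z = ⊥ →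
          layerIn (X ⊓ Y) = layerIn K := fun hn hZ hc => le_antisymm (layerIn_le_iff.2 fun L hL =>
        (hL.mono ((hL.le_or_commutator_of_normalIn hn).resolve_right fun e => hL.ne_bot (eq_bot_iff.2
          (hc ▸ le_inf (commutator_eq_bot_iff_le_centralizer.1 e) (hL.le.trans hZ)))) hn.1).le_layerIn)
        hn.subnormalIn.layerIn_le
      have e := hA.eq_bot (key hψ.normalIn inf_le_left hC ▸ h.normalIn.layerIn)
        (key hψ'.normalIn inf_le_right hC' ▸ nK'.layerIn)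
      refine hK0 (eq_bot_iff.2 (hψ.le.trans (fstarIn_eq_bot_iff.1 ?_).le))
      rw [fstarIn_eq, e, hF, bot_sup_eq]
    have hg' : MulAut.conj g⁻¹ • Y = X := by rw [← hg, map_inv, inv_smul_smul]
    obtain ⟨e, -, -⟩ := key hA.symm hg' h' h ha hb (by rw [inf_comm, hβ]; rw [hβ] at d2; omega)
      (inf_comm X Y ▸ hF) hC'
    refine hC' (eq_bot_iff.2 fun x hx => ?_)
    have : g⁻¹ * x * g ∈ centralizer (K : Set G) ⊓ X := ⟨fun y hy => by
      simpa [mul_assoc] using congrArg (fun t => g⁻¹ * t * g) (hx.1 _ (mem_conj_smul.1 (e.ge hy))),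
      mem_conj_smul.1 (hg.ge hx.2)⟩
    rw [hC, mem_bot] at this
    simpa [mul_assoc] using congrArg (fun t => g * t * g⁻¹) this
  obtain ⟨e1, e2, bC⟩ := key hA hg h h' hb ha (by omega) hF hC
  have bK : Big ψ' K := hψ'.big_of hψ'.big hψ.le hψ.normalIn.2 fun e => hK0 ((inf_eq_left.2 e).symm.trans e2)
  have hm : ∀ x ∈ X, ∃ c ∈ centralizer (K : Set G) ⊓ X, c⁻¹ * x ∈ X ⊓ Y := fun x hx => by
    obtain ⟨c, hc, e⟩ := h.exists_mul (b := b) bC ⟨x, hx⟩
    exact ⟨c, hc, (c⁻¹ * ⟨x, hx⟩ : X).2, (hb _).2 e⟩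
  obtain ⟨f, f1, f2⟩ := exists_ext (NormalIn.centralizer_inf h.normalIn.2) inf_le_left hm ψ'
    fun x hx => (hψ'.ker x).2 (hψ'.mem_of_comm bK x.2 hx.1)
  refine ⟨f, fun x h1 h2 => ?_, fun τ hτ => (bC τ hτ).imp fun x hx => ⟨hx.2, f2 x hx.1⟩, fun τ hτ => ?_,
    fun hs x => ?_⟩
  · have h3 := (h.ker x).1 h1
    exact Subtype.ext (mem_bot.1 (e2 ▸ ⟨h3, (hψ'.ker ⟨x, hψ.le h3⟩).1 ((f1 _).symm.trans h2)⟩))
  · obtain ⟨x, hx, e⟩ := bK τ hτ
    exact ⟨inclusion inf_le_left x, (h.ker _).2 hx, (f1 x).trans e⟩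
  by_contra hn
  obtain ⟨c, hc, hd⟩ := hm x x.2
  have e3 : f x = ψ' ⟨_, hd⟩ := by
    rw [← f1, ← one_mul (f (inclusion _ _)), ← f2 ⟨c, hc.2⟩ hc, ← map_mul]
    exact congrArg f (Subtype.ext (by simp))
  have n1 := (Finite.one_lt_card_iff_nontrivial (α := α)).1 (by omega)
  have e4 : ψ'.range = ⊤ := by
    refine eq_top_iff.2 fun σ _ => ?_
    by_cases hσ : sign σ = 1
    · exact hψ'.alt hσ
    · have := mul_mem (hψ'.alt (show σ * (f x)⁻¹ ∈ alternatingGroup _ by
        simp [Int.units_ne_iff_eq_neg.1 hσ, Int.units_ne_iff_eq_neg.1 hn])) (e3 ▸ ⟨_, rfl⟩ : f x ∈ ψ'.range)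
      simpa using this
  have e5 : K'.relIndex (X ⊓ Y) = (Nat.card α - 1).factorial := by
    rw [relIndex, ← hψ'.ker_eq, index_ker, e4, card_top, Nat.card_perm, ← hβ]
    simp
  have e6 : 2 * K.relIndex X ≤ (Nat.card α).factorial := by
    rw [relIndex, ← h.ker_eq, index_ker, ← Nat.card_perm, ← two_mul_nat_card_alternatingGroup]
    exact Nat.mul_le_mul_left _ (card_le_of_le (by rintro _ ⟨y, rfl⟩; exact hs y))
  have e7 := relIndex_mul_relIndex K' (X ⊓ Y) Y hψ'.le inf_le_right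
  rw [inf_relIndex_right, hi, e5, mul_comm, Nat.mul_factorial_pred (by omega), ← e1, ← hg,
    Subgroup.relIndex_pointwise_smul] at e7
  have := (Nat.card α).factorial_pos
  omega

theorem equiv_of_signs {H : Type*} [Group H] {d e : ℕ} (φ : H →* Perm (Fin d)) (f : H →* Perm (Fin e))
    (h1 : ∀ x, φ x = 1 → f x = 1 → x = 1) (h2 : ∀ τ ∈ alternatingGroup _, ∃ x, φ x = τ ∧ f x = 1)
    (h3 : ∀ τ ∈ alternatingGroup _, ∃ x, φ x = 1 ∧ f x = τ) (W : Subgroup (Perm (Fin d) × Perm (Fin e)))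
    (h4 : ∀ x, (φ x, f x) ∈ W) (h5 : ∀ p ∈ W, ∃ x, sign (φ x) = sign p.1 ∧ sign (f x) = sign p.2) :
    Nonempty (H ≃* W) := by
  refine ⟨(MonoidHom.ofInjective (f := φ.prod f) ((injective_iff_map_eq_one _).2 fun x hx =>
    h1 x (congrArg Prod.fst hx) (congrArg Prod.snd hx))).trans (MulEquiv.subgroupCongr
      (le_antisymm (by rintro _ ⟨x, rfl⟩; exact h4 x) fun p hp => ?_))⟩
  obtain ⟨x, e1, e2⟩ := h5 p hp
  obtain ⟨y, y1, y2⟩ := h2 (p.1 * (φ x)⁻¹) (by simp [e1])
  obtain ⟨z, z1, z2⟩ := h3 (p.2 * (f x)⁻¹) (by simp [e2])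
  exact ⟨y * z * x, by simp [y1, y2, z1, z2]⟩

theorem signs_onto {H : Type*} [Group H] (s t : H →* ℤˣ) {x y z : H} (hx : s x = -1) (hy : t y = -1)
    (hz : s z ≠ t z) (p q : ℤˣ) : ∃ w, s w = p ∧ t w = q := by
  by_contra hn
  push Not at hn
  have a1 := hn 1
  have a2 := hn x
  have a3 := hn y
  have a4 := hn z
  have a5 := hn (x * y)
  have a6 := hn (x * z)
  have a7 := hn (y * z)
  simp only [map_mul, map_one, hx, hy] at a1 a2 a3 a5 a6 a7
  clear hn
  generalize t x = u, s y = v, s z = w, t z = w' at *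
  rcases Int.units_eq_one_or p with rfl | rfl <;> rcases Int.units_eq_one_or q with rfl | rfl <;>
    rcases Int.units_eq_one_or u with rfl | rfl <;> rcases Int.units_eq_one_or v with rfl | rfl <;>
    rcases Int.units_eq_one_or w with rfl | rfl <;> rcases Int.units_eq_one_or w' with rfl | rfl <;>
    simp_all

theorem classify {H α β : Type*} [Group H] [Fintype α] [DecidableEq α] [Fintype β] [DecidableEq β]
    {d e : ℕ} (hd : Nat.card α = d) (he : Nat.card β = e) (h2 : 2 ≤ d) (φ : H →* Perm α) (f : H →* Perm β)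
    (f1 : ∀ x, φ x = 1 → f x = 1 → x = 1) (f2 : ∀ τ ∈ alternatingGroup α, ∃ x, φ x = τ ∧ f x = 1)
    (f3 : ∀ τ ∈ alternatingGroup β, ∃ x, φ x = 1 ∧ f x = τ)
    (f4 : (∀ x, sign (φ x) = 1) → ∀ x, sign (f x) = 1) :
    (φ.range.index = 2 ∧ Nonempty (H ≃* alternatingGroup (Fin d) × alternatingGroup (Fin e))) ∨
    (φ.range = ⊤ ∧ (Nonempty (H ≃* Perm (Fin d) × Perm (Fin e)) ∨
       Nonempty (H ≃* Perm (Fin d) × alternatingGroup (Fin e)) ∨
       Nonempty (H ≃* ((sign.comp (MonoidHom.fst (Perm (Fin d)) (Perm (Fin e)))) *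
         (sign.comp (MonoidHom.snd (Perm (Fin d)) (Perm (Fin e))))).ker))) := by
  have hA : alternatingGroup α ≤ φ.range := fun τ hτ => (f2 τ hτ).imp fun _ => And.left
  let u := (Finite.equivFinOfCardEq hd).permCongrHom
  let v := (Finite.equivFinOfCardEq he).permCongrHom
  have su : ∀ τ, sign (u τ) = sign τ := sign_permCongr _
  have sv : ∀ τ, sign (v τ) = sign τ := sign_permCongr _
  have key := equiv_of_signs (u.toMonoidHom.comp φ) (v.toMonoidHom.comp f)
    (fun x h1 h2 => f1 x (u.map_eq_one_iff.1 h1) (v.map_eq_one_iff.1 h2))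
    (fun τ hτ => (f2 (u.symm τ) (by simpa [← su] using hτ)).imp fun x hx => by simp [hx.1, hx.2])
    (fun τ hτ => (f3 (v.symm τ) (by simpa [← sv] using hτ)).imp fun x hx => by simp [hx.1, hx.2])
  simp only [MonoidHom.comp_apply, MulEquiv.coe_toMonoidHom, su, sv] at key
  have n1 := (Finite.one_lt_card_iff_nontrivial (α := α)).1 (by omega)
  by_cases h1 : ∀ x, sign (φ x) = 1
  · refine Or.inl ⟨?_, (key ((alternatingGroup _).prod (alternatingGroup _))
      (fun x => ⟨(su _).trans (h1 x), (sv _).trans (f4 h1 x)⟩) fun p hp => ⟨1, by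
        simpa [eq_comm, mem_prod] using hp⟩).map fun e => e.trans (prodEquiv _ _)⟩
    rw [show φ.range = alternatingGroup _ from le_antisymm (by rintro _ ⟨x, rfl⟩; exact h1 x) hA]
    exact alternatingGroup.index_eq_two
  push Not at h1
  obtain ⟨x, hx⟩ := h1
  rw [Int.units_ne_iff_eq_neg] at hx
  refine Or.inr ⟨eq_top_iff.2 fun σ _ => ?_, ?_⟩
  · rcases Int.units_eq_one_or (sign σ) with h | h
    · exact hA h
    · simpa using mul_mem (hA (show σ * (φ x)⁻¹ ∈ alternatingGroup _ by simp [h, hx])) ⟨x, rfl⟩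
  by_cases h2 : ∀ y, sign (f y) = 1
  · refine Or.inr (Or.inl ((key ((⊤ : Subgroup _).prod (alternatingGroup _))
      (fun y => ⟨trivial, (sv _).trans (h2 y)⟩) fun p hp => ?_).map fun e =>
        e.trans ((prodEquiv _ _).trans (MulEquiv.prodCongr topEquiv (MulEquiv.refl _)))))
    have := mem_alternatingGroup.1 hp.2
    rcases Int.units_eq_one_or (sign p.1) with h | h
    exacts [⟨1, by simp [h, this]⟩, ⟨x, by simp [h, hx, this, h2]⟩]
  by_cases h3 : ∀ y, sign (φ y) = sign (f y)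
  · refine Or.inr (Or.inr (key _ (fun y => by simp [h3, su, sv]) fun p hp => ?_))
    have : sign p.1 = sign p.2 := by
      rw [← inv_inj, inv_eq_of_mul_eq_one_right (show sign p.1 * sign p.2 = 1 from hp), Int.units_inv_eq_self]
    rcases Int.units_eq_one_or (sign p.1) with h | h
    exacts [⟨1, by simp [← this, h]⟩, ⟨x, by simp [← this, h, ← h3, hx]⟩]
  push Not at h2 h3
  obtain ⟨y, hy⟩ := h2
  obtain ⟨z, hz⟩ := h3
  exact Or.inl ((key ⊤ (fun _ => trivial) fun p _ => signs_onto (sign.comp φ) (sign.comp f) hx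
    (Int.units_ne_iff_eq_neg.1 hy) hz _ _).map fun e => e.trans topEquiv)

end Cfsg.Agent.H7.Kn
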