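import Cfsg.Agent.H1.SpBasic

/-!
# `Sp₆(2)`: generation by transvections, order, normal subgroups, involutions
-/

set_option autoImplicit false
set_option linter.unusedSectionVars false

namespace Cfsg.Agent.H7.P3

open Matrix Cfsg.Agent.H1 Sum

section Gen

variable {F : Type*} [Field F] {l : Type*} [DecidableEq l] [Fintype l]
  {M : Subgroup (symplecticGroup l F)} {I : Set (l ⊕ l)}

theorem tv_conj (A : symplecticGroup l F) (u : l ⊕ l → F) (c : F) :
    A * spTv u c * A⁻¹ = spTv (spAct A u) c := sp_ext fun a => by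
  rw [spAct_mul, spAct_mul, spAct_tv, spAct_tv, map_add, map_smul, spAct_act_inv, spB_act_left]

theorem fmap (hM : ∀ u c, spTv u c ∈ M) {x y : l ⊕ l → F} (h : x - y ∈ spPerp F I)
    (hxy : spB x y ≠ 0) : ∃ A ∈ M ⊓ spFix F I, spAct A x = y := by
  refine ⟨spTv (x - y) (-(spB x y)⁻¹), ⟨hM _ _, fun a ha => ?_⟩, ?_⟩
  · rw [spAct_tv, spB_eq_comm (h a ha)]; simp
  · rw [spAct_tv, map_sub, LinearMap.sub_apply, spB_self, spB_swap y x]
    have : -(spB x y)⁻¹ * (0 - -spB x y) = -1 := by field_simp; ring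
    rw [this]; simp

theorem fmap' (hM : ∀ u c, spTv u c ∈ M) {x y e : l ⊕ l → F} (h : x - y ∈ spPerp F I)
    (he : e ∈ spPerp F I) (hx : spB e x ≠ 0) (hy : spB e y ≠ 0) :
    ∃ A ∈ M ⊓ spFix F I, spAct A x = y := by
  by_cases hxy : spB x y = 0
  swap
  · exact fmap hM h hxy
  obtain ⟨A, hA, hAx⟩ := fmap hM (I := I) (x := x) (y := x + e)
    (by simpa using he) (by simpa [spB_self] using spB_ne_comm hx)
  obtain ⟨B, hB, hBx⟩ := fmap hM (I := I) (x := x + e) (y := y)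
    (by have := (spPerp F I).add_mem h he; rwa [show x - y + e = x + e - y by abel] at this)
    (by simpa [hxy] using hy)
  exact ⟨B * A, Subgroup.mul_mem _ hB hA, by rw [spAct_mul, hAx, hBx]⟩

theorem bv_ne_zero (a : l ⊕ l) : bv F a ≠ 0 := fun h => by simpa [bv] using congrFun h a

theorem mapA (hM : ∀ u c, spTv u c ∈ M) (hI : ∀ a ∈ I, a.swap ∈ I) {k : l} (hk : inr k ∉ I)
    {v : l ⊕ l → F} (hv : v ∈ spPerp F I) (h0 : v ≠ 0) :
    ∃ A ∈ M ⊓ spFix F I, spAct A (bv F (inl k)) = v := by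
  have hx : bv F (inl k) ∈ spPerp F I := bv_mem_spPerp hk
  obtain ⟨w, hw, h1, h2⟩ := exists_two_ne (spPerp F I) (spB _) (spB v)
    (exists_perp_ne hI hx (bv_ne_zero _)) (exists_perp_ne hI hv h0)
  exact fmap' hM ((spPerp F I).sub_mem hx hv) hw (spB_ne_comm h1) (spB_ne_comm h2)

theorem mapB (hM : ∀ u c, spTv u c ∈ M) {k : l} (hk : inr k ∉ I) {v : l ⊕ l → F}
    (hv : bv F (inr k) - v ∈ spPerp F (insert (inl k) I)) :
    ∃ A ∈ M ⊓ spFix F (insert (inl k) I), spAct A (bv F (inr k)) = v := by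
  have h := hv _ (Set.mem_insert _ _)
  rw [map_sub, spB_inl_inr, sub_eq_zero] at h
  exact fmap' hM hv (e := bv F (inl k)) (bv_mem_spPerp (by simpa using hk))
    (by rw [spB_inl_inr]; simp) (by rw [← h]; simp)

theorem mapC {k : l} (hk : inr k ∉ I) (hk' : inl k ∉ I) {v : l ⊕ l → F} (hv : v ∈ spPerp F I)
    {c : l ⊕ l} (hc : c ∉ I) (h0 : v c ≠ 0) : ∃ A ∈ spFix F I, spAct A (bv F (inl k)) = v := by
  have hx : bv F (inl k) ∈ spPerp F I := bv_mem_spPerp hk
  obtain ⟨w, hw, h1, h2⟩ := exists_two_ne (spPerp F I) (spB (bv F (inl k))) (spB v)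
    ⟨bv F (inr k), bv_mem_spPerp hk', by rw [spB_inl_inr]; simp⟩
    ⟨bv F c.swap, bv_mem_spPerp (by simpa using hc), spB_ne_comm (by
      rw [Ne, spB_bv_eq_zero_iff]; simpa using h0)⟩
  exact exists_fix_map' ((spPerp F I).sub_mem hx hv) hw (spB_ne_comm h1) (spB_ne_comm h2)

theorem mem_insert_fix {A : symplecticGroup l F} {a : l ⊕ l} (hA : A ∈ spFix F I)
    (h : spAct A (bv F a) = bv F a) : A ∈ spFix F (insert a I) := by
  rintro b (rfl | hb)
  exacts [h, hA b hb]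

theorem gen_step {a : l ⊕ l} (h1 : ∀ A ∈ spFix F I, ∃ B ∈ M ⊓ spFix F I,
    spAct B (bv F a) = spAct A (bv F a)) (h2 : spFix F (insert a I) ≤ M) : spFix F I ≤ M := by
  intro A hA
  obtain ⟨B, hB, e⟩ := h1 A hA
  have := h2 (mem_insert_fix (Subgroup.mul_mem _ (Subgroup.inv_mem _ hB.2) hA)
    (by rw [spAct_mul, ← e, spAct_inv_act]))
  simpa using M.mul_mem hB.1 this

theorem act_ne_zero (A : symplecticGroup l F) {v : l ⊕ l → F} (h : v ≠ 0) : spAct A v ≠ 0 :=
  fun e => h (by rw [← spAct_inv_act A v, e, map_zero])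

theorem gen_step2 (hM : ∀ u c, spTv u c ∈ M) (hI : ∀ a ∈ I, a.swap ∈ I) {k : l} (hk : inr k ∉ I)
    (h2 : spFix F (insert (inr k) (insert (inl k) I)) ≤ M) : spFix F I ≤ M :=
  gen_step (fun _ hA => mapA hM hI hk (act_mem_spPerp hA (bv_mem_spPerp hk))
    (act_ne_zero _ (bv_ne_zero _))) (gen_step (fun _ hA => mapB hM hk (by
      simpa using Submodule.neg_mem _ (act_sub_mem_spPerp hA _))) h2)

theorem card_step [Finite F] {a : l ⊕ l} (O : Finset (l ⊕ l → F))
    (h : ∀ v ∈ O, ∃ B ∈ ⊤ ⊓ spFix F I, spAct B (bv F a) = v) :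
    O.card * Nat.card (spFix F (insert a I)) ≤ Nat.card (spFix F I) := by
  choose! f hf hf' using h
  have hle : spFix F (insert a I) ≤ spFix F I := spFix_anti (Set.subset_insert _ _)
  have e : ∀ (v : O) (B : spFix F (insert a I)), spAct (f v * B.1) (bv F a) = v := fun v B => by
    rw [spAct_mul, B.2 a (Set.mem_insert _ _), hf' v v.2]
  rw [← Nat.card_eq_finsetCard, ← Nat.card_prod]
  refine Nat.card_le_card_of_injective (fun q => ⟨f q.1 * q.2,
    Subgroup.mul_mem _ (hf _ q.1.2).2 (hle q.2.2)⟩) fun q q' h => ?_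
  have h1 : f q.1 * q.2 = f q'.1 * q'.2 := congrArg Subtype.val h
  have h2 : q.1 = q'.1 := Subtype.ext (by rw [← e q.1 q.2, h1, e])
  rw [h2, mul_right_inj] at h1
  exact Prod.ext h2 (Subtype.ext h1)

end Gen

/-- The space. -/
abbrev V := Fin 3 ⊕ Fin 3 → ZMod 2

/-- The group. -/
abbrev Sp : Type := symplecticGroup (Fin 3) (ZMod 2)

/-- A transvection. -/
noncomputable abbrev tv (u : V) : Sp := spTv u 1

/-- A basis vector. -/
abbrev ee (k : Fin 3) : V := bv (ZMod 2) (inl k)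

/-- A basis vector. -/
abbrev ff (k : Fin 3) : V := bv (ZMod 2) (inr k)

theorem z2 (c : ZMod 2) : c = 0 ∨ c = 1 := by revert c; decide

theorem tv_mem {M : Subgroup Sp} (h : ∀ u, tv u ∈ M) (u : V) (c : ZMod 2) : spTv u c ∈ M := by
  rcases z2 c with rfl | rfl
  · rw [show spTv u 0 = 1 from sp_ext fun a => by simp [spAct_tv]]
    exact M.one_mem
  · exact h u

theorem eq_top {M : Subgroup Sp} (h : ∀ u, tv u ∈ M) : M = ⊤ := by
  have := gen_step2 (I := ∅) (tv_mem h) (by simp) (k := 0) (by simp)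
    (gen_step2 (tv_mem h) (by simp) (k := 1) (by simp)
    (gen_step2 (tv_mem h) (by simp) (k := 2) (by simp) fun A hA => by
      rw [show A = 1 from sp_ext fun a => by
        rw [spAct_one]; exact hA a (by revert a; simp only [Set.mem_insert_iff]; decide)]
      exact M.one_mem))
  exact top_le_iff.mp fun A _ => this fun a ha => ha.elim

theorem card_step2 {I : Set (Fin 3 ⊕ Fin 3)} (hI : ∀ a ∈ I, a.swap ∈ I) {k : Fin 3}
    (hk : inr k ∉ I) (L : List (Fin 3 ⊕ Fin 3)) (hL : ∀ a ∈ I, a ∈ L) :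
    (Finset.univ.filter fun v : V => v ≠ 0 ∧ ∀ a ∈ L, v a = 0).card *
      ((Finset.univ.filter fun v : V => v (inr k) = 1 ∧ ∀ a ∈ L, v a = 0).card *
      Nat.card (spFix (ZMod 2) (insert (inr k) (insert (inl k) I)))) ≤
      Nat.card (spFix (ZMod 2) I) := by
  refine (Nat.mul_le_mul_left _ (card_step _ fun v hv => mapB (by simp) hk ?_)).trans
    (card_step _ fun v hv => mapA (by simp) hI hk ?_ (Finset.mem_filter.mp hv).2.1)
  · have h := (Finset.mem_filter.mp hv).2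
    rintro a (rfl | ha)
    · rw [spB_bv_eq_zero_iff]; simp [bv, h.1]
    · have h1 : a.swap ≠ inr k := fun e => hk (e ▸ hI a ha)
      rw [spB_bv_eq_zero_iff]; simp [bv, h.2 _ (hL _ (hI a ha)), h1]
  · exact fun a ha => (spB_bv_eq_zero_iff _ _).mpr
      ((Finset.mem_filter.mp hv).2.2 _ (hL _ (hI a ha)))

theorem card_ge : 1451520 ≤ Nat.card Sp := by
  have h1 := card_step2 (I := ∅) (by simp) (k := 0) (by simp) [] (by simp)
  have h2 := card_step2 (I := insert (inr 0) (insert (inl 0) ∅)) (by simp) (k := 1) (by simp)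
    [inr 0, inl 0] (by simp)
  have h3 := card_step2 (I := insert (inr 1) (insert (inl 1) (insert (inr 0) (insert (inl 0) ∅))))
    (by simp) (k := 2) (by simp) [inr 1, inl 1, inr 0, inl 0] (by simp)
  rw [show Finset.card _ = 63 by decide +kernel, show Finset.card _ = 32 by decide +kernel] at h1
  rw [show Finset.card _ = 15 by decide +kernel, show Finset.card _ = 8 by decide +kernel] at h2
  rw [show Finset.card _ = 3 by decide +kernel, show Finset.card _ = 2 by decide +kernel] at h3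
  have h4 := Nat.card_pos (α := spFix (ZMod 2) (insert (inr (2 : Fin 3)) (insert (inl 2)
    (insert (inr 1) (insert (inl 1) (insert (inr 0) (insert (inl 0) ∅)))))))
  have h5 : _ ≤ Nat.card Sp :=
    Subgroup.card_le_card_group (spFix (ZMod 2) (∅ : Set (Fin 3 ⊕ Fin 3)))
  omega

theorem vneg (v : V) : -v = v := funext fun _ => CharTwo.neg_eq _

theorem tv_sq (u : V) : tv u * tv u = 1 := sp_ext fun a => by
  rw [spAct_mul, spAct_tv, spAct_tv, map_add, map_smul, spB_self, smul_zero, add_zero, add_assoc,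
    spAct_one, ← sub_neg_eq_add (_ • u), vneg, sub_self, add_zero]

theorem tv_cj (A : Sp) (u : V) : tv (spAct A u) = A * tv u * A⁻¹ := (tv_conj A u 1).symm

theorem pair {a b : V} (ha : a ≠ 0) (hb : b ≠ 0) (hab : a ≠ b) :
    ∃ A : Sp, spAct A (ee 0) = a ∧ (spAct A (ee 1) = b ∨ spAct A (ff 0) = b) := by
  obtain ⟨A, -, hA⟩ := mapA (M := ⊤) (I := ∅) (by simp) (by simp) (k := 0) (by simp)
    (fun _ h => h.elim) ha
  have h0 := act_ne_zero A⁻¹ hb
  have h1 : spAct A⁻¹ b ≠ ee 0 := fun e => hab (by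
    rw [← hA, ← spAct_act_inv A b, e])
  obtain ⟨B, hB, e⟩ : ∃ B ∈ spFix (ZMod 2) (insert (inl 0) ∅),
      spAct B (ee 1) = spAct A⁻¹ b ∨ spAct B (ff 0) = spAct A⁻¹ b := by
    generalize spAct A⁻¹ b = v at h0 h1
    rcases z2 (v (inr 0)) with h | h
    · obtain ⟨c, hc, h2⟩ := (by decide +kernel :
        ∀ v : V, v ≠ 0 → v ≠ ee 0 → ∃ c, c ≠ inl 0 ∧ v c ≠ 0) v h0 h1
      obtain ⟨B, hB, e⟩ := mapC (I := insert (inl 0) ∅) (k := 1) (by simp) (by simp) (v := v)
        (by simpa [mem_spPerp, spB_bv_eq_zero_iff] using h) (by simpa using hc) h2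
      exact ⟨B, hB, .inl e⟩
    · obtain ⟨B, hB, e⟩ := mapB (M := ⊤) (I := ∅) (by simp) (k := 0) (by simp) (v := v) (by
        rintro a (rfl | ha)
        · rw [spB_bv_eq_zero_iff]; simp [bv, h]
        · exact ha.elim)
      exact ⟨B, hB.2, .inr e⟩
  exact ⟨A * B, by rw [spAct_mul, hB _ (Set.mem_insert _ _), hA],
    e.imp (fun e => by rw [spAct_mul, e, spAct_act_inv]) fun e => by
      rw [spAct_mul, e, spAct_act_inv]⟩

theorem normal_cases {N : Subgroup Sp} [hN : N.Normal] (h : N ≠ ⊥) :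
    tv (ee 0) * tv (ee 1) ∈ N ∨ tv (ee 0) * tv (ff 0) ∈ N := by
  obtain ⟨⟨n, hn⟩, h1⟩ := Subgroup.ne_bot_iff_exists_ne_one.mp h
  obtain ⟨a, ha⟩ : ∃ a, spAct n (bv (ZMod 2) a) ≠ bv (ZMod 2) a := by
    by_contra! h2
    exact h1 (Subtype.ext (sp_ext fun a => (h2 a).trans (spAct_one _).symm))
  obtain ⟨A, e1, e2⟩ := pair (act_ne_zero n (bv_ne_zero a)) (bv_ne_zero a) ha
  have h2 : tv (spAct n (bv (ZMod 2) a)) * tv (bv (ZMod 2) a) ∈ N := by
    rw [tv_cj, mul_assoc, mul_assoc, ← mul_assoc (tv _)]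
    nth_rewrite 2 [← inv_eq_of_mul_eq_one_right (tv_sq (bv (ZMod 2) a))]
    exact N.mul_mem hn (hN.conj_mem _ (N.inv_mem hn) _)
  have h3 : ∀ v, spAct A v = bv (ZMod 2) a → tv (ee 0) * tv v ∈ N := fun v e => by
    rw [← e1, ← e, tv_cj, tv_cj, conj_mul] at h2
    simpa [mul_assoc] using hN.conj_mem _ h2 A⁻¹
  exact e2.imp (h3 _) (h3 _)

theorem inv_step {I : Set (Fin 3 ⊕ Fin 3)} (hI : ∀ k, inr k ∉ I) {k : Fin 3} (hk : inl k ∉ I)
    {h : Sp} (h1 : h ∈ spFix (ZMod 2) I) (h2 : h * h = 1) :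
    ∃ A : Sp, A⁻¹ * h * A ∈ spFix (ZMod 2) (insert (inl k) I) := by
  by_cases hc : ∃ x c, c ∉ I ∧ (spAct h x - x) c ≠ 0
  · obtain ⟨x, c, hc, h0⟩ := hc
    obtain ⟨A, hA, e⟩ := mapC (hI k) hk (act_sub_mem_spPerp h1 x) hc h0
    refine ⟨A, mem_insert_fix (Subgroup.mul_mem _ (Subgroup.mul_mem _ (Subgroup.inv_mem _ hA) h1)
      hA) ?_⟩
    rw [spAct_mul, spAct_mul, e, map_sub, ← spAct_mul, h2, spAct_one, ← neg_sub, vneg, ← e,
      spAct_inv_act]
  push Not at hc
  refine ⟨1, by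
    rw [inv_one, one_mul, mul_one]
    refine mem_insert_fix h1 (sub_eq_zero.mp (funext fun c => ?_))
    by_cases hcI : c ∈ I
    · rcases c with j | j
      · have := hc (ff j) _ (hI k)
        rw [← neg_eq_zero, ← spB_inl, spB_swap, neg_eq_zero, map_sub, LinearMap.sub_apply,
          spB_act_left, inv_eq_of_mul_eq_one_right h2, ← map_sub, spB_inr] at this
        exact this
      · exact absurd hcI (hI j)
    · exact hc _ c hcI⟩

theorem inv_form {h : Sp} (h2 : h * h = 1) : ∃ (A : Sp) (X : Matrix (Fin 3) (Fin 3) (ZMod 2)),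
    Xᵀ = X ∧ (A⁻¹ * h * A).1 = fromBlocks 1 X 0 1 := by
  have cj : ∀ {h : Sp} (A : Sp), h * h = 1 → A⁻¹ * h * A * (A⁻¹ * h * A) = 1 := fun {h} A e => by
    calc _ = A⁻¹ * (h * h) * A := by group
      _ = 1 := by rw [e]; group
  obtain ⟨A, hA⟩ := inv_step (I := ∅) (by simp) (k := 0) (by simp) (fun _ h => h.elim) h2
  obtain ⟨B, hB⟩ := inv_step (by simp) (k := 1) (by simp) hA (cj A h2)
  obtain ⟨C, hC⟩ := inv_step (by simp) (k := 2) (by simp) hB (cj B (cj A h2))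
  rw [show C⁻¹ * (B⁻¹ * (A⁻¹ * h * A) * B) * C = (A * B * C)⁻¹ * h * (A * B * C) by group] at hC
  refine ⟨A * B * C, ?_⟩
  generalize (A * B * C)⁻¹ * h * (A * B * C) = g at hC
  have e0 : ∀ a b, g.1 a b = spAct g (bv (ZMod 2) b) a := fun a b => by simp [spAct_def, bv]
  have hI : ∀ i : Fin 3, inl i ∈ (insert (inl 2) (insert (inl 1) (insert (inl 0) ∅)) :
      Set (Fin 3 ⊕ Fin 3)) := fun i => by fin_cases i <;> simp
  have e1 : ∀ a j, g.1 a (inl j) = ee j a := fun a j => by rw [e0, hC _ (hI j)]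
  have e2 : ∀ i j, g.1 (inr i) (inr j) = ff j (inr i) := fun i j => by
    have := act_sub_mem_spPerp hC (ff j) _ (hI i)
    rwa [spB_bv_eq_zero_iff, Pi.sub_apply, sub_eq_zero, ← e0] at this
  refine ⟨of fun i j => g.1 (inl i) (inr j), ?_, ?_⟩
  · ext i j
    have := spB_act g (ff i) (ff j)
    rw [spB_bv_bv (by simp), spB_eq] at this
    simp only [← e0, e2] at this
    symm
    simpa [bv, Pi.single_apply, Finset.sum_sub_distrib, sub_eq_zero] using this
  · ext (i | i) (j | j) <;> simp [e1, e2, bv, Pi.single_apply, one_apply]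

end Cfsg.Agent.H7.P3
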