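import Cfsg.Agent.H7.Socle
import Cfsg.Agent.H6.Basic

/-!
The socle of a finite primitive group.
-/

set_option autoImplicit false

namespace Cfsg.Agent.H7

open Subgroup MulAction
open scoped Pointwise

variable {G Ω : Type*} [Group G] [MulAction G Ω] [FaithfulSMul G Ω]

/-- Two commuting transitive subgroups are isomorphic. -/
theorem exists_hom_of_commuting_transitive (a : Ω) {V W : Subgroup G}
    (hVW : V ≤ centralizer (W : Set G)) (hV : IsPretransitive V Ω) (hW : IsPretransitive W Ω) :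
    ∃ f : V →* G, Function.Injective f ∧ f.range = W := by
  have hVs : ∀ v ∈ V, v • a = a → v = 1 := fun v hv h => eq_one_of_mem_centralizer hW (hVW hv) h
  have hWs : ∀ w ∈ W, w • a = a → w = 1 := fun w hw h =>
    eq_one_of_mem_centralizer hV (le_centralizer_iff.1 hVW hw) h
  have h1 : ∀ v : V, ∃ w ∈ W, w • (v : G) • a = a := fun v => by
    obtain ⟨w, hw⟩ := hW.exists_smul_eq ((v : G) • a) a
    exact ⟨w, w.2, hw⟩
  choose f hfW hf using h1
  have huniq : ∀ (v : V), ∀ w ∈ W, w • (v : G) • a = a → f v = w := by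
    intro v w hw h
    have := hWs (f v * w⁻¹) (W.mul_mem (hfW v) (W.inv_mem hw)) (by
      conv_lhs => rw [← h]
      rw [mul_smul, inv_smul_smul, hf])
    exact mul_inv_eq_one.1 this
  refine ⟨MonoidHom.mk' f fun u v => huniq _ _ (W.mul_mem (hfW u) (hfW v)) ?_, ?_, ?_⟩
  · rw [coe_mul, mul_smul, mul_smul, ← mul_smul (f v), hVW u.2 _ (hfW v), mul_smul, hf, hf]
  · rw [injective_iff_map_eq_one]
    intro v hv
    have := hf v
    rw [show f v = 1 from hv, one_smul] at this
    exact Subtype.ext (hVs v v.2 this)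
  · refine le_antisymm ?_ fun w hw => ?_
    · rintro _ ⟨v, rfl⟩
      exact hfW v
    · obtain ⟨v, hv⟩ := hV.exists_smul_eq a (w⁻¹ • a)
      exact ⟨v, huniq v w hw (by rw [show (v : G) • a = w⁻¹ • a from hv, smul_inv_smul])⟩

theorem socle_structure [Finite G] [IsPreprimitive G Ω] (N : Subgroup G)
    (hN : N = sSup {V : Subgroup G | IsMinNormal V}) :
    (∃ p : ℕ, p.Prime ∧ IsMulCommutative N ∧ (∀ x : N, x ^ p = 1) ∧
      IsPretransitive N Ω ∧ ∀ ω : Ω, stabilizer N ω = ⊥) ∨
    (∃ (T : Type) (_ : Group T) (m : ℕ), 1 ≤ m ∧ IsSimpleGroup T ∧ ¬ IsMulCommutative T ∧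
      Nonempty (N ≃* (Fin m → T))) := by
  rcases subsingleton_or_nontrivial G with hG | hG
  · left
    refine ⟨2, Nat.prime_two, ⟨⟨fun _ _ => Subsingleton.elim _ _⟩⟩, fun _ => Subsingleton.elim _ _,
      ⟨fun x y => ?_⟩, fun _ => Subsingleton.elim _ _⟩
    obtain ⟨g, rfl⟩ := exists_smul_eq G x y
    exact ⟨1, by rw [Subsingleton.elim g 1, one_smul, one_smul]⟩
  have hΩ : Nonempty Ω := by
    by_contra h
    obtain ⟨g, hg⟩ := exists_ne (1 : G)
    exact hg (eq_of_smul_eq_smul (α := Ω) fun x => (h ⟨x⟩).elim)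
  have hle : ∀ V, IsMinNormal V → V ≤ N := fun V hV => hN ▸ le_sSup hV
  by_cases hab : ∃ M : Subgroup G, IsMinNormal M ∧ ⁅M, M⁆ = ⊥
  · left
    obtain ⟨M, hM, hc⟩ := hab
    have := hM.1
    have hMt : IsPretransitive M Ω := isPretransitive_of_normal_of_ne_bot M hM.ne_bot
    have h1 : N = M := by
      refine le_antisymm (hN ▸ sSup_le fun V hV => ?_) (hle M hM)
      rcases (show IsMinNormal V from hV).eq_or_commutator hM with h | h
      · exact h.le
      · exact (commutator_eq_bot_iff_le_centralizer.1 h).trans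
          (centralizer_le_of_transitive_comm hMt (commutator_eq_bot_iff_le_centralizer.1 hc))
    subst h1
    obtain ⟨p, hp, hp'⟩ := hM.exists_prime_pow_eq_one hc
    exact ⟨p, hp, isMulCommutative_iff_commutator.2 hc, fun x => Subtype.ext (hp' x x.2), hMt,
      fun ω => stabilizer_subgroup_eq_bot_iff.2 fun n hn => semiregular_of_comm hM.ne_bot hc n hn ω⟩
  right
  push Not at hab
  obtain ⟨a⟩ := hΩ
  have hNn : N.Normal := hN ▸ sSup_normal _ fun V hV => hV.1
  have hF : fittingIn N = ⊥ := by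
    by_contra h
    obtain ⟨V, hV, hVF⟩ := exists_isMinNormal_le
      (NormalIn.normal ((NormalIn.of_normal N).fittingIn)) h
    exact hab V hV (hV.comm_of_isNilpotent (isNilpotent_of_le (fittingIn_isNilpotent N) hVF))
  have hsub : ∀ V, IsMinNormal V → SubnormalIn V N := fun V hV =>
    have := hV.1
    ((NormalIn.of_normal V).mono (hle V hV) le_top).subnormalIn
  have hE : layerIn N = N := by
    refine le_antisymm (layerIn_le N) ?_
    conv_lhs => rw [hN]
    refine sSup_le fun V hV => ?_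
    have hV' : IsMinNormal V := hV
    rw [← hV'.layerIn_eq (hab V hV')]
    exact (hsub V hV').layerIn_le
  obtain ⟨M, hM⟩ := exists_isMinNormal G
  have := hM.1
  obtain ⟨T, hT⟩ := exists_compIn_of_fittingIn_eq_bot hM.ne_bot (hM.fittingIn_eq_bot (hab M hM))
  have hMT : ∀ L, CompIn L M → Nonempty (L ≃* T) := fun L hL => by
    obtain ⟨g, rfl⟩ := hM.exists_conj_comp hL hT
    exact ⟨equivMapOfInjective L _ (MulAut.conj g).injective⟩
  have hNT : ∀ L, CompIn L N → Nonempty (L ≃* T) := by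
    intro L hL
    obtain ⟨V, hV, hLV⟩ : ∃ V, IsMinNormal V ∧ L ≤ V := by
      by_contra hcon
      push Not at hcon
      apply hL.commutator_self_ne_bot
      rw [commutator_eq_bot_iff_le_centralizer, ← le_centralizer_iff]
      refine hL.le.trans (hN ▸ sSup_le fun V hV => ?_)
      rw [le_centralizer_iff, ← commutator_eq_bot_iff_le_centralizer]
      exact (hL.le_or_commutator (hsub V hV)).resolve_left (hcon V hV)
    have hLV' : CompIn L V := hL.mono hLV (hle V hV)
    rcases hV.eq_or_commutator hM with rfl | h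
    · exact hMT L hLV'
    · have := hV.1
      obtain ⟨f, hf, hfr⟩ := exists_hom_of_commuting_transitive a
        (commutator_eq_bot_iff_le_centralizer.1 h)
        (isPretransitive_of_normal_of_ne_bot V hV.ne_bot)
        (isPretransitive_of_normal_of_ne_bot M hM.ne_bot)
      have h1 := (CompIn.top_iff.2 (CompIn.iff_subgroupOf.1 hLV').2).map_of_injective hf
      rw [← MonoidHom.range_eq_map, hfr] at h1
      obtain ⟨e⟩ := hMT _ h1
      exact ⟨((subgroupOfEquivOfLe hLV).symm.trans (equivMapOfInjective _ f hf)).trans e⟩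
  obtain ⟨T₀, _, _, ⟨e₀⟩⟩ := H6.exists_type_zero T
  have hTs := hT.isSimpleGroup (hM.fittingIn_eq_bot (hab M hM))
  obtain ⟨e⟩ := nonempty_layerIn_mulEquiv_pow hF (T := T₀) fun L hL =>
    ⟨(hNT L hL).some.trans e₀.symm⟩
  have hne : Nonempty {L : Subgroup G // CompIn L N} := ⟨⟨T, hT.of_subnormalIn (hsub M hM)⟩⟩
  refine ⟨T₀, inferInstance, _, Nat.card_pos, e₀.isSimpleGroup, fun h => ?_,
    ⟨(MulEquiv.subgroupCongr hE.symm).trans e⟩⟩
  apply hT.not_isMulCommutative
  refine ⟨⟨fun x y => e₀.symm.injective ?_⟩⟩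
  rw [map_mul, map_mul, h.is_comm.comm]

end Cfsg.Agent.H7
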