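import Cfsg.Agent.H7.Tutte2
import Cfsg.Agent.H7.SmallRec

/-!
The Tutte–Sims argument: the isomorphism type of the vertex stabilizer.
-/

set_option autoImplicit false

namespace Cfsg.Agent.H7

open Subgroup MulAction
open scoped Pointwise

variable {G : Type*} [Group G]

theorem Tutte.shift_index {s : ℤ} {W : ℤ → ℤ → Subgroup G} (h : Tutte s W) (m : ℤ) :
    Tutte s fun p q => W (p + m) (q + m) where
  two_le := h.two_le
  mono h1 h2 := h.mono (by omega) (by omega)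
  inter h1 := h.inter (by omega)
  bot h1 := h.bot (by omega)
  idxL h1 h2 h3 := h.idxL (by omega) (by omega) (by omega)
  idxR h1 h2 h3 := h.idxR (by omega) (by omega) (by omega)
  idxL3 h1 h2 := h.idxL3 (by omega) (by omega)
  idxR3 h1 h2 := h.idxR3 (by omega) (by omega)
  amalg N h1 h2 h3 h4 h5 := h.amalg N (by omega) (by omega) (by omega) h4 h5
  shift := by
    obtain ⟨g, hg⟩ := h.shift
    exact ⟨g, fun p q p' q' h1 h2 => hg _ _ _ _ (by omega) (by omega)⟩

theorem eq_one_of_conj_eq_mul {r x w : G} (h1 : r * x * r⁻¹ = x * w) (h2 : Commute r w)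
    (h3 : w * w = 1) (h4 : Commute (r ^ 3) x) : w = 1 := by
  have e1 : r * x = x * w * r := by rw [← h1, inv_mul_cancel_right]
  have e2 : r * r * x = x * (r * r) := by
    calc r * r * x = r * (x * w * r) := by rw [mul_assoc, e1]
      _ = (r * x) * (w * r) := by simp only [mul_assoc]
      _ = x * (w * (r * w)) * r := by rw [e1]; simp only [mul_assoc]
      _ = _ := by rw [h2.eq, ← mul_assoc w, h3, one_mul, mul_assoc]
  have e3 : r ^ 3 * x = x * w * r ^ 3 := by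
    rw [pow_three, mul_assoc, e2, ← mul_assoc, e1, mul_assoc]
  rw [h4.eq, mul_left_inj, left_eq_mul] at e3
  exact e3

namespace TutteZ

variable {s : ℤ} {W : ℤ → ℤ → Subgroup G} {z : ℤ → G}

theorem normalIn_mid (h : TutteZ s W z) {p q p' q' : ℤ} (h1 : q - p = s - 1) (hp : p' = p + 1)
    (hq : q' = q - 1) : NormalIn (W p' q') (W p q) := by
  have hs := h.two_le
  refine ⟨h.mono (by omega) (by omega), h.le_of_mem h1.le fun k h2 h3 => ?_⟩
  rcases eq_or_lt_of_le h3 with rfl | h4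
  · exact (normalIn_of_relIndex_two (h.mono le_rfl (by omega))
      (h.idxR (q := k) (by omega) (by omega) hq)).2 (h.mem (by omega) le_rfl)
  · exact (normalIn_of_relIndex_two (h.mono (by omega) le_rfl)
      (h.idxL (p := p) (by omega) (by omega) hp)).2 (h.mem h2 (by omega))

theorem cube_aux [Finite G] (h : TutteZ s W z) {p q p' q' : ℤ} (h1 : q - p = s - 1)
    (hp : p' = p + 1) (hq : q' = q - 1) {e : G} (he : e ∈ W p q) (he2 : e * e ∈ W p' q')
    (hz : z p * e * z p = e⁻¹) : e ∈ W p q' := by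
  have hs := h.two_le
  by_contra hcon
  have h2 : e ∈ normalizer (W p q' : Set G) := by
    apply mem_normalizer_fintype
    intro x hx
    refine h.le_of_mem (H := (W p q').comap (MulAut.conj e).toMonoidHom) (by omega)
      (fun k h3 h4 => ?_) hx
    change e * z k * e⁻¹ ∈ W p q'
    rcases eq_or_lt_of_le h3 with rfl | h5
    · have : e * z p * e⁻¹ = e * e * z p := by
        rw [← hz, ← mul_assoc, ← mul_assoc, mul_assoc e, h.sq, mul_one]
      rw [this]
      exact mul_mem (h.mono (by omega) le_rfl he2) (h.mem le_rfl h4)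
    · exact h.mono (by omega) le_rfl ((h.normalIn_mid h1 hp hq).conj_mem (h.mem (by omega) h4) he)
  have h3 := le_of_relIndex_prime (h.mono le_rfl (by omega) : W p q' ≤ W p q)
    (by rw [h.idxR3 h1 hq]; exact Nat.prime_three) le_normalizer he hcon h2
  have := normal_subgroupOf_of_le_normalizer h3
  have h4 := pow_index_mem ((W p q').subgroupOf (W p q)) ⟨z q, h.mem (by omega) le_rfl⟩
  rw [← relIndex, h.idxR3 h1 hq, mem_subgroupOf, coe_pow, pow_three, h.sq, mul_one] at h4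
  exact h.notMemR (by omega) (by omega) h4

theorem conj_mul (h : TutteZ s W z) (i j : ℤ) : z i * (z i * z j) * z i = (z i * z j)⁻¹ := by
  rw [← mul_assoc, h.sq, one_mul, mul_inv_rev, h.inv, h.inv]

theorem conj_mul' (h : TutteZ s W z) (i j : ℤ) : z j * (z i * z j) * z j = (z i * z j)⁻¹ := by
  rw [mul_assoc, mul_assoc, h.sq, mul_one, mul_inv_rev, h.inv, h.inv]

theorem conj_pow (h : TutteZ s W z) {i : ℤ} {r : G} (hr : z i * r * z i = r⁻¹) (n : ℕ) :
    z i * r ^ n * z i = (r ^ n)⁻¹ := by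
  rw [← inv_pow, ← hr]
  conv_lhs => rhs; rw [← h.inv]
  conv_rhs => lhs; rhs; rw [← h.inv]
  rw [_root_.conj_pow]

theorem cube_mem [Finite G] (h : TutteZ s W z) {p q p' q' : ℤ} (h1 : q - p = s - 1)
    (hp : p' = p + 1) (hq : q' = q - 1) : (z p * z q) ^ 3 ∈ W p' q' := by
  have hs := h.two_le
  have hr : z p * z q ∈ W p q := mul_mem (h.mem le_rfl (by omega)) (h.mem (by omega) le_rfl)
  have h2 : (z p * z q) ^ 3 * (z p * z q) ^ 3 ∈ W p' q' := by
    have := (h.normalIn_mid h1 hp hq).subgroupOf_normal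
    have h4 := pow_index_mem ((W p' q').subgroupOf (W p q)) ⟨_, hr⟩
    rw [← relIndex, ← relIndex_mul_relIndex (W p' q') (W p q') (W p q) (h.mono (by omega) le_rfl)
      (h.mono le_rfl (by omega)), h.idxR3 h1 hq, h.idxL (by omega) (by omega) hp] at h4
    rw [← pow_add]
    exact h4
  refine h.inter (p := p) (q := q) (by omega) ⟨?_, h.cube_aux h1 hp hq (pow_mem hr 3) h2
    (h.conj_pow (h.conj_mul p q) 3)⟩
  have := h.rev'.cube_aux (p := -q) (q := -p) (p' := -q') (q' := -p') (e := (z p * z q) ^ 3)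
    (by omega) (by omega) (by omega)
  simp only [neg_neg] at this
  exact this (pow_mem hr 3) h2 (h.conj_pow (h.conj_mul' p q) 3)

theorem ne (h : TutteZ s W z) {i j : ℤ} (h1 : i < j) (h2 : j - i ≤ s) : z i ≠ z j := fun h3 =>
  h.notMemL h1 h2 (h3 ▸ h.zmem j)

theorem struct_two [Finite G] (h : TutteZ 2 W z) (hl : Lam z 1) :
    Nonempty (W 0 1 ≃* Equiv.Perm (Fin 3)) := by
  refine nonempty_mulEquiv_perm_of_coreIn (h.idxL3 (p' := 1) rfl rfl) ?_ (h.card_eq' 1 rfl rfl)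
  rw [eq_bot_iff]
  intro x hx
  by_contra hx1
  obtain rfl := h.eq_z (coreIn_le_left _ _ hx) hx1
  have h1 := h.eq_z (hx.2 (z 0) (h.mem le_rfl (by omega))) (fun h1 => h.zne 1 (by
    rwa [mul_assoc, inv_mul_eq_one, right_eq_mul] at h1))
  rw [mul_assoc, inv_mul_eq_iff_eq_mul] at h1
  exact hl.2 0 1 rfl h1.symm

theorem struct_three [Finite G] (h : TutteZ 3 W z) (hl : Lam z 2) :
    Nonempty (W 0 2 ≃* DihedralGroup 6) := by
  have c01 : Commute (z 0) (z 1) := hl.1 _ _ (by omega) (by omega)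
  have c21 : Commute (z 2) (z 1) := hl.1 _ _ (by omega) (by omega)
  have hr : z 0 * z 2 ∈ W 0 2 := mul_mem (h.mem le_rfl (by omega)) (h.mem (by omega) le_rfl)
  have h1 : (z 0 * z 2) ^ 2 ≠ 1 := fun h1 => by
    rw [pow_two, mul_eq_one_iff_eq_inv, mul_inv_rev, h.inv, h.inv] at h1
    exact hl.2 0 2 rfl h1
  obtain ⟨ρ, h2, h3, h4, h5, h6⟩ : ∃ ρ ∈ W 0 2, ρ ^ 3 = z 1 ∧ ρ ^ 2 ≠ 1 ∧ z 0 * ρ * z 0 = ρ⁻¹ ∧
      (z 0 * z 2 = ρ ∨ z 0 * z 2 * z 1 = ρ) := by
    by_cases h2 : (z 0 * z 2) ^ 3 = 1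
    · refine ⟨z 0 * z 2 * z 1, mul_mem hr (h.mem (by omega) (by omega)), ?_, ?_, ?_, Or.inr rfl⟩
      · rw [(c01.mul_left c21).mul_pow, h2, one_mul, pow_three, h.sq, mul_one]
      · rwa [(c01.mul_left c21).mul_pow, pow_two (z 1), h.sq, mul_one]
      · rw [← mul_assoc, mul_assoc _ (z 1), ← c01.eq, ← mul_assoc, h.conj_mul, mul_inv_rev _ (z 1),
          h.inv, (c01.mul_left c21).inv_left.eq]
    · exact ⟨_, hr, h.eq_z (h.cube_mem (p := 0) (q := 2) rfl rfl rfl) h2, h1, h.conj_mul 0 2,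
        Or.inl rfl⟩
  refine nonempty_mulEquiv_dihedral_sub h2 (h.mem le_rfl (by omega)) ?_ (h.sq 0) h5 ?_ ?_
  · refine orderOf_eq_of_pow_and_pow_div_prime (by norm_num)
      (by rw [show 6 = 3 + 3 from rfl, pow_add, h3, h.sq]) fun p hp hd => ?_
    have := Nat.le_of_dvd (by norm_num) hd
    interval_cases p
    · norm_num at hp
    · norm_num at hp
    · rw [show 6 / 2 = 3 from rfl, h3]; exact h.zne 1
    · exact h4
    · norm_num at hp
    · norm_num at hd
    · norm_num at hp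
  · rintro ⟨k, hk⟩
    have h7 : Commute (z 0) ρ := hk ▸ (Commute.refl ρ).zpow_left k
    rw [h7.eq, mul_assoc, h.sq, mul_one, eq_inv_iff_mul_eq_one, ← pow_two] at h5
    exact h4 h5
  · have m0 : z 0 ∈ closure {ρ, z 0} := subset_closure (by simp)
    have mρ : ρ ∈ closure {ρ, z 0} := subset_closure (by simp)
    have m1 : z 1 ∈ closure {ρ, z 0} := h3 ▸ pow_mem mρ 3
    refine h.le_of_mem (by omega) fun k h7 h8 => ?_
    interval_cases k
    · exact m0
    · exact m1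
    · rcases h6 with h6 | h6
      · rw [← mul_mem_cancel_left m0, h6]; exact mρ
      · rw [← mul_mem_cancel_left m0, ← mul_mem_cancel_right m1, h6]; exact mρ

theorem conj_eq_of_comm (h : TutteZ s W z) {i j : ℤ} {c : G}
    (hc : z i * z j * (z i)⁻¹ * (z j)⁻¹ = c) :
    z i * z j * (z i)⁻¹ = c * z j ∧ z j * z i * (z j)⁻¹ = z i * c := by
  refine ⟨by rw [← hc, inv_mul_cancel_right], ?_⟩
  rw [← hc, ← mul_assoc, ← mul_assoc, ← mul_assoc, h.sq, one_mul, h.inv i]

theorem comm_of_mem (h : TutteZ s W z) {l : ℤ} (hl : Lam z l) {p q : ℤ} (h1 : q - p < l)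
    (h2 : q - p ≤ s - 1) {x y : G} (hx : x ∈ W p q) (hy : y ∈ W p q) : Commute x y :=
  h.le_centralizer h2 (fun k h4 h5 => (h.le_centralizer h2
    (fun k' h6 h7 => hl.1 _ _ (by omega) (by omega)) hy).symm) hx

theorem struct_four [Finite G] (h : TutteZ 4 W z) (hl : Lam z 2) :
    Nonempty (W 0 3 ≃* Equiv.Perm (Fin 4)) := by
  have hr : z 0 * z 3 ∈ W 0 3 := mul_mem (h.mem le_rfl (by omega)) (h.mem (by omega) le_rfl)
  have h1 := h.cube_mem (p := 0) (q := 3) (p' := 1) (q' := 2) rfl rfl rfl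
  have hVc : W 1 2 ≤ centralizer (W 1 2 : Set G) := fun x hx y hy =>
    h.comm_of_mem hl (by omega) (by omega) hy hx
  have hc : ∀ i j k, j = i + 2 → k = i + 1 → z i * z j * (z i)⁻¹ * (z j)⁻¹ = z k :=
    fun i j k hj hk => h.eq_z (h.comm_mem_mid hl (by omega) (by omega) hj (by omega) (by omega))
      fun h2 => hl.2 i j hj (commutatorElement_eq_one_iff_commute.1 h2)
  refine nonempty_mulEquiv_perm_four_sub (h.card_eq' 3 rfl rfl)
    (h.normalIn_mid (p' := 1) (q' := 2) rfl rfl rfl)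
    (h.card_eq 2 rfl (by omega)) hVc (pow_mem hr 4) (h.mem le_rfl (by omega)) ?_ (h.sq 0) ?_ ?_
  · have := h.sq_eq_one_of_mem hl (by omega) (by omega) h1
    rw [← pow_mul, show 4 * 3 = (3 + 3) * 2 from rfl, pow_mul, pow_add, this, one_pow]
  · intro h2
    rw [pow_succ, mul_mem_cancel_left (hVc h1)] at h2
    have h3 := h2 (z 1) (h.mem le_rfl (by omega))
    have e1 := (h.conj_eq_of_comm (hc 1 3 2 rfl rfl)).2
    have e2 := (h.conj_eq_of_comm (hc 0 2 1 rfl rfl)).1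
    have c01 : Commute (z 0) (z 1) := hl.1 _ _ (by omega) (by omega)
    apply h.ne (i := 1) (j := 2) (by omega) (by omega)
    calc z 1 = z 0 * (z 3 * z 1 * (z 3)⁻¹) * (z 0)⁻¹ := by
          conv_lhs => rw [← mul_inv_eq_iff_eq_mul.2 h3.symm]
          group
      _ = z 1 * (z 0 * z 2 * (z 0)⁻¹) := by rw [e1, ← mul_assoc, c01.eq]; group
      _ = z 2 := by rw [e2, ← mul_assoc, h.sq, one_mul]
  · intro h2
    exact hl.2 0 2 rfl (h2 (z 2) (h.mem (by omega) le_rfl)).symm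

theorem five_comm [Finite G] (h : TutteZ 5 W z) (hl : Lam z 3) :
    z 0 * z 3 * (z 0)⁻¹ * (z 3)⁻¹ = z 1 * z 2 ∧ z 1 * z 4 * (z 1)⁻¹ * (z 4)⁻¹ = z 2 * z 3 := by
  obtain ⟨g, -, hg⟩ := h.exists_shift
  have hs : g * (z 0 * z 3 * (z 0)⁻¹ * (z 3)⁻¹) * g⁻¹ = z 1 * z 4 * (z 1)⁻¹ * (z 4)⁻¹ := by
    rw [← hg 0 1 rfl, ← hg 3 4 rfl]; group
  have h1 := h.cube_mem (p := 0) (q := 4) (p' := 1) (q' := 3) rfl rfl rfl
  have h2 := h.comm_mem_mid hl (by omega) (by omega) (i := 0) (j := 3) (p := 1) (q := 2) rfl rfl rfl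
  have h3 : z 0 * z 3 * (z 0)⁻¹ * (z 3)⁻¹ ≠ 1 := fun h3 =>
    hl.2 0 3 rfl (commutatorElement_eq_one_iff_commute.1 h3)
  have c : ∀ i j, i - j < 3 → j - i < 3 → Commute (z i) (z j) := hl.1
  have cr : Commute (z 0 * z 4) (z 2) :=
    (c _ _ (by omega) (by omega)).mul_left (c _ _ (by omega) (by omega))
  have h4 : z 0 * z 3 * (z 0)⁻¹ * (z 3)⁻¹ ∉ W 1 1 := fun h4 => by
    have e0 := h.eq_z h4 h3
    rw [e0, hg 1 2 rfl] at hs
    refine h.zne 2 (eq_one_of_conj_eq_mul (x := z 1) ?_ cr (h.sq 2)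
      (h.comm_of_mem hl (by omega) (by omega) h1 (h.mem le_rfl (by omega))))
    calc z 0 * z 4 * z 1 * (z 0 * z 4)⁻¹ = z 0 * (z 4 * z 1 * (z 4)⁻¹) * (z 0)⁻¹ := by group
      _ = _ := by
        rw [(h.conj_eq_of_comm hs.symm).2, ((c 0 1 (by omega) (by omega)).mul_right
          (c 0 2 (by omega) (by omega))).eq, mul_inv_cancel_right]
  have h5 : z 0 * z 3 * (z 0)⁻¹ * (z 3)⁻¹ ∉ W 2 2 := fun h5 => by
    have e0 := h.eq_z h5 h3
    refine h.zne 2 (eq_one_of_conj_eq_mul (x := z 3) ?_ cr (h.sq 2)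
      (h.comm_of_mem hl (by omega) (by omega) h1 (h.mem (by omega) le_rfl)))
    calc z 0 * z 4 * z 3 * (z 0 * z 4)⁻¹ = z 0 * (z 4 * z 3 * (z 4)⁻¹) * (z 0)⁻¹ := by group
      _ = _ := by
        rw [(c 4 3 (by omega) (by omega)).eq, mul_inv_cancel_right, (h.conj_eq_of_comm e0).1,
          (c 2 3 (by omega) (by omega)).eq]
  have h6 : z 1 * (z 0 * z 3 * (z 0)⁻¹ * (z 3)⁻¹) ∈ W 2 2 :=
    (mul_mem_iff_of_relIndex_two (h.idxL (p := 1) (by omega) (by omega) rfl)
      (h.mem le_rfl (by omega)) h2).2 (iff_of_false (h.notMemL (by omega) (by omega)) h5)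
  have h7 := h.eq_z h6 fun h7 => h4 (by
    rw [mul_eq_one_iff_inv_eq] at h7
    rw [← h7]
    exact inv_mem (h.zmem 1))
  have h8 : z 0 * z 3 * (z 0)⁻¹ * (z 3)⁻¹ = z 1 * z 2 := by
    rw [← h7, ← mul_assoc (z 1), h.sq, one_mul]
  refine ⟨h8, ?_⟩
  rw [← hs, h8, ← hg 1 2 rfl, ← hg 2 3 rfl, hg 1 2 rfl]
  conv_rhs => lhs; rw [← hg 1 2 rfl]
  group

theorem struct_five [Finite G] (h : TutteZ 5 W z) (hl : Lam z 3) :
    Nonempty (W 0 4 ≃* Equiv.Perm (Fin 4) × Multiplicative (ZMod 2)) := by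
  obtain ⟨e0, e1⟩ := h.five_comm hl
  have c : ∀ i j, i - j < 3 → j - i < 3 → Commute (z i) (z j) := hl.1
  have hK : ∀ {x y}, x ∈ W 1 3 → y ∈ W 1 3 → Commute x y := fun hx hy =>
    h.comm_of_mem hl (by omega) (by omega) hx hy
  have hK2 : ∀ {x}, x ∈ W 1 3 → x * x = 1 := fun hx =>
    h.sq_eq_one_of_mem hl (by omega) (by omega) hx
  have h1 := h.cube_mem (p := 0) (q := 4) (p' := 1) (q' := 3) rfl rfl rfl
  have hX : Nat.card (W 0 4) = 48 := h.card_eq' 4 rfl rfl
  have hZ : ∀ x ∈ W 0 4, Commute x (z 2) := fun x hx =>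
    h.le_centralizer (by omega) (fun k h2 h3 => c _ _ (by omega) (by omega)) hx
  set a := z 1 * z 2 with ha
  set b := z 2 * z 3 with hb
  set r := z 0 * z 4 with hr
  have haK : a ∈ W 1 3 := mul_mem (h.mem (by omega) (by omega)) (h.mem (by omega) (by omega))
  have hbK : b ∈ W 1 3 := mul_mem (h.mem (by omega) (by omega)) (h.mem (by omega) (by omega))
  have hab : a * b = z 1 * z 3 := by rw [ha, hb, mul_assoc, ← mul_assoc (z 2), h.sq, one_mul]
  have a0 : z 0 * a * (z 0)⁻¹ = a := by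
    rw [((c 0 1 (by omega) (by omega)).mul_right (c 0 2 (by omega) (by omega))).eq,
      mul_inv_cancel_right]
  have b0 : z 0 * b * (z 0)⁻¹ = a * b := by
    calc z 0 * b * (z 0)⁻¹ = z 2 * (z 0 * z 3 * (z 0)⁻¹) := by
          rw [hb, ← mul_assoc, (c 0 2 (by omega) (by omega)).eq]; group
      _ = a * b := by
          rw [(h.conj_eq_of_comm e0).1, ← mul_assoc, (hK (h.mem (by omega) (by omega)) haK).eq,
            mul_assoc]
  have b4 : z 4 * b * (z 4)⁻¹ = b := by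
    rw [((c 4 2 (by omega) (by omega)).mul_right (c 4 3 (by omega) (by omega))).eq,
      mul_inv_cancel_right]
  have a4 : z 4 * a * (z 4)⁻¹ = a * b := by
    calc z 4 * a * (z 4)⁻¹ = (z 4 * z 1 * (z 4)⁻¹) * z 2 := by
          rw [ha, mul_assoc _ _ (z 2), ← (c 2 4 (by omega) (by omega)).inv_right.eq]; group
      _ = a * b := by
          rw [(h.conj_eq_of_comm e1).2, mul_assoc, (hK hbK (h.mem (by omega) (by omega))).eq,
            ← mul_assoc]
  set V := zpowers a ⊔ zpowers b with hV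
  have haV : a ∈ V := mem_sup_left (mem_zpowers a)
  have hbV : b ∈ V := mem_sup_right (mem_zpowers b)
  have hVK : V ≤ W 1 3 := sup_le (zpowers_le.2 haK) (zpowers_le.2 hbK)
  have hKC : W 1 3 ≤ centralizer (V : Set G) := fun x hx y hy => hK (hVK hy) hx
  have hN : ∀ x : G, x * a * x⁻¹ ∈ V → x * b * x⁻¹ ∈ V → x ∈ normalizer (V : Set G) := by
    intro x h2 h3
    apply mem_normalizer_fintype
    intro y hy
    exact (sup_le (zpowers_le.2 h2) (zpowers_le.2 h3) :
      V ≤ V.comap (MulAut.conj x).toMonoidHom) hy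
  have hN0 := hN (z 0) (a0.symm ▸ haV) (b0.symm ▸ mul_mem haV hbV)
  have hN4 := hN (z 4) (a4.symm ▸ mul_mem haV hbV) (b4.symm ▸ hbV)
  have ord2 : ∀ x : G, x * x = 1 → Nat.card (zpowers x) ∣ 2 := fun x hx => by
    rw [Nat.card_zpowers]; exact orderOf_dvd_of_pow_eq_one (by rw [pow_two, hx])
  have hV4 : Nat.card V ∣ 4 :=
    (H9.card_sup_dvd_of_le_normalizer (zpowers_le.2 (centralizer_le_normalizer _ (by
      rintro _ ⟨k, rfl⟩; exact ((hK hbK haK).zpow_left k).eq)))).trans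
      (mul_dvd_mul (ord2 a (hK2 haK)) (ord2 b (hK2 hbK)))
  have hρ : (r ^ 4) ^ 3 = 1 := by
    rw [← pow_mul, show 4 * 3 = (3 + 3) * 2 from rfl, pow_mul, pow_add, hK2 h1, one_pow]
  set H := zpowers (z 0) ⊔ zpowers (r ^ 4) with hH
  have hH6 : Nat.card H ∣ 2 * 3 := by
    refine (H9.card_sup_dvd_of_le_normalizer (zpowers_le.2 ?_)).trans
      (mul_dvd_mul (ord2 _ (h.sq 0)) ?_)
    · apply mem_normalizer_fintype
      intro y hy
      refine (zpowers_le.2 ?_ :
        zpowers (r ^ 4) ≤ (zpowers (r ^ 4)).comap (MulAut.conj (z 0)).toMonoidHom) hy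
      change z 0 * r ^ 4 * (z 0)⁻¹ ∈ zpowers (r ^ 4)
      rw [h.inv, h.conj_pow (h.conj_mul 0 4)]
      exact inv_mem (mem_zpowers _)
    · rw [Nat.card_zpowers]; exact orderOf_dvd_of_pow_eq_one hρ
  have hHN : H ≤ normalizer (V : Set G) :=
    sup_le (zpowers_le.2 hN0) (zpowers_le.2 (pow_mem (mul_mem hN0 hN4) 4))
  have hM := H9.card_sup_dvd_of_le_normalizer hHN
  have hMX : H ⊔ V ≤ W 0 4 := sup_le (sup_le (zpowers_le.2 (h.mem (by omega) (by omega)))
    (zpowers_le.2 (pow_mem (mul_mem (h.mem (by omega) (by omega)) (h.mem (by omega) (by omega))) 4)))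
    (hVK.trans (h.mono (by omega) (by omega)))
  have m0 : z 0 ∈ H ⊔ V := mem_sup_left (mem_sup_left (mem_zpowers _))
  have mρ : r ^ 4 ∈ H ⊔ V := mem_sup_left (mem_sup_right (mem_zpowers _))
  have hsup : H ⊔ V ⊔ zpowers (z 2) = W 0 4 := by
    refine le_antisymm (sup_le hMX (zpowers_le.2 (h.mem (by omega) (by omega)))) ?_
    have m2 : z 2 ∈ H ⊔ V ⊔ zpowers (z 2) := mem_sup_right (mem_zpowers _)
    have m1 : z 1 ∈ H ⊔ V ⊔ zpowers (z 2) :=
      (mul_mem_cancel_right m2).1 (mem_sup_left (mem_sup_right haV))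
    have m3 : z 3 ∈ H ⊔ V ⊔ zpowers (z 2) :=
      (mul_mem_cancel_left m2).1 (mem_sup_left (mem_sup_right hbV))
    have mK : W 1 3 ≤ H ⊔ V ⊔ zpowers (z 2) := h.le_of_mem (by omega) fun k h2 h3 => by
      interval_cases k <;> assumption
    have mr : r ∈ H ⊔ V ⊔ zpowers (z 2) := by
      rw [← mul_mem_cancel_left (mK h1), ← pow_succ]
      exact mem_sup_left mρ
    refine h.le_of_mem (by omega) fun k h2 h3 => ?_
    interval_cases k
    · exact mem_sup_left m0
    · exact m1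
    · exact m2
    · exact m3
    · exact (mul_mem_cancel_left (mem_sup_left m0)).1 mr
  have hZ' : ∀ m ∈ H ⊔ V, ∀ y ∈ zpowers (z 2), Commute m y := by
    rintro m hm _ ⟨k, rfl⟩
    exact (hZ m (hMX hm)).zpow_right k
  have hZ2 : Nat.card (zpowers (z 2)) = 2 := by
    rw [Nat.card_zpowers]
    exact orderOf_eq_prime (by rw [pow_two, h.sq]) (h.zne 2)
  have h2 := H9.card_sup_dvd_of_le_normalizer (A := H ⊔ V) (B := zpowers (z 2))
    fun m hm => centralizer_le_normalizer _ fun y hy => (hZ' m hm y hy).symm.eq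
  rw [hsup, hX, hZ2] at h2
  have h3 := Nat.le_of_dvd (Nat.mul_pos Nat.card_pos two_pos) h2
  have h4 := Nat.le_of_dvd (Nat.mul_pos Nat.card_pos Nat.card_pos) hM
  have h5 := Nat.le_of_dvd (by norm_num) hV4
  have h6 := Nat.le_of_dvd (by norm_num) hH6
  have hM24 : Nat.card (H ⊔ V : Subgroup G) = 24 := by nlinarith
  have hV4' : Nat.card V = 4 := by nlinarith
  obtain ⟨e⟩ := nonempty_mulEquiv_prod hZ' hsup (by rw [hM24, hZ2, hX])
  obtain ⟨e'⟩ := nonempty_mulEquiv_perm_four_sub hM24 ⟨le_sup_right, sup_le hHN le_normalizer⟩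
    hV4' (hVK.trans hKC) mρ m0 hρ (h.sq 0) (fun h7 => by
      rw [pow_succ, mul_mem_cancel_left (hKC h1)] at h7
      have h8 : a = b := by
        calc a = z 0 * (z 4 * a * (z 4)⁻¹) * (z 0)⁻¹ := by
              conv_lhs => rw [← mul_inv_eq_iff_eq_mul.2 (h7 a haV).symm, hr]
              group
          _ = (z 0 * a * (z 0)⁻¹) * (z 0 * b * (z 0)⁻¹) := by rw [a4]; group
          _ = b := by rw [a0, b0, ← mul_assoc, hK2 haK, one_mul]
      rw [h8, hK2 hbK, eq_comm, mul_eq_one_iff_eq_inv, h.inv] at hab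
      exact h.ne (by omega) (by omega) hab) fun h7 => by
      rw [← h7 b hbV, mul_inv_cancel_right, right_eq_mul, ha, mul_eq_one_iff_eq_inv, h.inv] at b0
      exact h.ne (by omega) (by omega) b0
  exact ⟨e.trans (e'.prodCongr (mulEquivOfPrimeCardEq hZ2 (by simp)))⟩

end TutteZ

end Cfsg.Agent.H7
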